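import Mathlib

/-!
# Bit-sliced arithmetic in the field with 81 elements (helper516, S5925)

A trit is a pair of planes `(m, s)` (`m` : nonzero, `s` : equal to 2); an element of `F₈₁ = F₃[g]`, `g⁴ = -g + 1`, is a
quadruple of trits.  `R g i X u` : lane `i` of the register `X` represents `u = c₀ + c₁ g + c₂ g² + c₃ g³`.

* `Q.add Q.sub Q.neg Q.mul Q.frob Q.mulg Q.zero Q.const Q.nz` and their soundness `R.add`, …;
* `R.nz` : if `u = 0` then the bit `i` of `Q.nz X` is false.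
-/

set_option autoImplicit false
set_option linter.unusedSectionVars false

namespace Cfsg.Agent.H516.BS

/-! ### trits -/

/-- a register of trits -/
structure T where
  m : ℕ
  s : ℕ

namespace T

def zero : T := ⟨0, 0⟩

def add (x y : T) : T :=
  let s := x.m ^^^ y.s
  let t := x.s ^^^ y.m
  ⟨(s ^^^ x.s) ||| (t ^^^ y.s), s &&& t⟩

def sub (x y : T) : T :=
  let s := x.m ^^^ y.m
  ⟨s ||| (x.s ^^^ y.s), (s ^^^ y.s) &&& (y.m ^^^ x.s)⟩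

def neg (x : T) : T := ⟨x.m, x.m ^^^ x.s⟩

def mul (x y : T) : T :=
  let m := x.m &&& y.m
  ⟨m, m &&& (x.s ^^^ y.s)⟩

/-- lane `i` represents `u` -/
def Rt (i : ℕ) (x : T) (u : ZMod 3) : Prop := x.m.testBit i = decide (u ≠ 0) ∧ x.s.testBit i = decide (u = 2)

theorem Rt.zero (i : ℕ) : Rt i zero 0 := by
  constructor <;> simp [T.zero]; decide

theorem dec_add : ∀ u v : ZMod 3,
    ((((decide (u ≠ 0)) ^^ (decide (v = 2))) ^^ decide (u = 2)) || (((decide (u = 2)) ^^ decide (v ≠ 0)) ^^ decide (v = 2))) =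
      decide (u + v ≠ 0) ∧
    (((decide (u ≠ 0)) ^^ (decide (v = 2))) && ((decide (u = 2)) ^^ decide (v ≠ 0))) = decide (u + v = 2) := by decide

theorem Rt.add {i : ℕ} {x y : T} {u v : ZMod 3} (hx : Rt i x u) (hy : Rt i y v) : Rt i (x.add y) (u + v) := by
  obtain ⟨h1, h2⟩ := hx
  obtain ⟨h3, h4⟩ := hy
  constructor
  · show (((x.m ^^^ y.s) ^^^ x.s) ||| ((x.s ^^^ y.m) ^^^ y.s)).testBit i = _
    rw [Nat.testBit_or, Nat.testBit_xor, Nat.testBit_xor, Nat.testBit_xor, Nat.testBit_xor, h1, h2, h3, h4]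
    exact (dec_add u v).1
  · show ((x.m ^^^ y.s) &&& (x.s ^^^ y.m)).testBit i = _
    rw [Nat.testBit_and, Nat.testBit_xor, Nat.testBit_xor, h1, h2, h3, h4]
    exact (dec_add u v).2

theorem dec_sub : ∀ u v : ZMod 3,
    (((decide (u ≠ 0)) ^^ (decide (v ≠ 0))) || ((decide (u = 2)) ^^ decide (v = 2))) = decide (u - v ≠ 0) ∧
    ((((decide (u ≠ 0)) ^^ (decide (v ≠ 0))) ^^ (decide (v = 2))) && ((decide (v ≠ 0)) ^^ decide (u = 2))) =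
      decide (u - v = 2) := by decide

theorem Rt.sub {i : ℕ} {x y : T} {u v : ZMod 3} (hx : Rt i x u) (hy : Rt i y v) : Rt i (x.sub y) (u - v) := by
  obtain ⟨h1, h2⟩ := hx
  obtain ⟨h3, h4⟩ := hy
  constructor
  · show ((x.m ^^^ y.m) ||| (x.s ^^^ y.s)).testBit i = _
    rw [Nat.testBit_or, Nat.testBit_xor, Nat.testBit_xor, h1, h2, h3, h4]
    exact (dec_sub u v).1
  · show (((x.m ^^^ y.m) ^^^ y.s) &&& (y.m ^^^ x.s)).testBit i = _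
    rw [Nat.testBit_and, Nat.testBit_xor, Nat.testBit_xor, Nat.testBit_xor, h1, h2, h3, h4]
    exact (dec_sub u v).2

theorem dec_neg : ∀ u : ZMod 3, (decide (u ≠ 0)) = decide (-u ≠ 0) ∧
    ((decide (u ≠ 0)) ^^ (decide (u = 2))) = decide (-u = 2) := by decide

theorem Rt.neg {i : ℕ} {x : T} {u : ZMod 3} (hx : Rt i x u) : Rt i x.neg (-u) := by
  obtain ⟨h1, h2⟩ := hx
  constructor
  · show x.m.testBit i = _
    rw [h1]
    exact (dec_neg u).1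
  · show (x.m ^^^ x.s).testBit i = _
    rw [Nat.testBit_xor, h1, h2]
    exact (dec_neg u).2

theorem dec_mul : ∀ u v : ZMod 3,
    ((decide (u ≠ 0)) && (decide (v ≠ 0))) = decide (u * v ≠ 0) ∧
    (((decide (u ≠ 0)) && (decide (v ≠ 0))) && ((decide (u = 2)) ^^ decide (v = 2))) = decide (u * v = 2) := by decide

theorem Rt.mul {i : ℕ} {x y : T} {u v : ZMod 3} (hx : Rt i x u) (hy : Rt i y v) : Rt i (x.mul y) (u * v) := by
  obtain ⟨h1, h2⟩ := hx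
  obtain ⟨h3, h4⟩ := hy
  constructor
  · show (x.m &&& y.m).testBit i = _
    rw [Nat.testBit_and, h1, h3]
    exact (dec_mul u v).1
  · show ((x.m &&& y.m) &&& (x.s ^^^ y.s)).testBit i = _
    rw [Nat.testBit_and, Nat.testBit_and, Nat.testBit_xor, h1, h2, h3, h4]
    exact (dec_mul u v).2

end T

/-! ### elements of the field -/

/-- a register of elements of `F₈₁` -/
structure Q where
  c0 : T
  c1 : T
  c2 : T
  c3 : T

/-- coefficients -/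
structure K4 where
  c0 : ZMod 3
  c1 : ZMod 3
  c2 : ZMod 3
  c3 : ZMod 3

namespace Q

def zero : Q := ⟨.zero, .zero, .zero, .zero⟩

def add (X Y : Q) : Q := ⟨X.c0.add Y.c0, X.c1.add Y.c1, X.c2.add Y.c2, X.c3.add Y.c3⟩

def sub (X Y : Q) : Q := ⟨X.c0.sub Y.c0, X.c1.sub Y.c1, X.c2.sub Y.c2, X.c3.sub Y.c3⟩

def neg (X : Q) : Q := ⟨X.c0.neg, X.c1.neg, X.c2.neg, X.c3.neg⟩

/-- multiplication by `g` -/
def mulg (X : Q) : Q := ⟨X.c3, X.c0.sub X.c3, X.c1, X.c2⟩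

/-- third power -/
def frob (X : Q) : Q := ⟨X.c0, X.c3, X.c2.add X.c3, (X.c1.sub X.c2).add X.c3⟩

def mul (X Y : Q) : Q :=
  let p4 := ((X.c1.mul Y.c3).add (X.c2.mul Y.c2)).add (X.c3.mul Y.c1)
  let p5 := (X.c2.mul Y.c3).add (X.c3.mul Y.c2)
  let p6 := X.c3.mul Y.c3
  ⟨(X.c0.mul Y.c0).add p4,
    (((X.c0.mul Y.c1).add (X.c1.mul Y.c0)).sub p4).add p5,
    ((((X.c0.mul Y.c2).add (X.c1.mul Y.c1)).add (X.c2.mul Y.c0)).sub p5).add p6,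
    ((((X.c0.mul Y.c3).add (X.c1.mul Y.c2)).add (X.c2.mul Y.c1)).add (X.c3.mul Y.c0)).sub p6⟩

/-- mask of the nonzero lanes -/
def nz (X : Q) : ℕ := (X.c0.m ||| X.c1.m) ||| (X.c2.m ||| X.c3.m)

end Q

namespace K4

def mul (x y : K4) : K4 :=
  ⟨x.c0 * y.c0 + (x.c1 * y.c3 + x.c2 * y.c2 + x.c3 * y.c1),
    x.c0 * y.c1 + x.c1 * y.c0 - (x.c1 * y.c3 + x.c2 * y.c2 + x.c3 * y.c1) + (x.c2 * y.c3 + x.c3 * y.c2),
    x.c0 * y.c2 + x.c1 * y.c1 + x.c2 * y.c0 - (x.c2 * y.c3 + x.c3 * y.c2) + x.c3 * y.c3,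
    x.c0 * y.c3 + x.c1 * y.c2 + x.c2 * y.c1 + x.c3 * y.c0 - x.c3 * y.c3⟩

end K4

/-- lane `i` of `X` is `c` -/
def Rq (i : ℕ) (X : Q) (c : K4) : Prop := X.c0.Rt i c.c0 ∧ X.c1.Rt i c.c1 ∧ X.c2.Rt i c.c2 ∧ X.c3.Rt i c.c3

section field

variable {F : Type*} [Field F] [CharP F 3]

/-- the prime field -/
def io (F : Type*) [Field F] [CharP F 3] : ZMod 3 →+* F := ZMod.castHom (dvd_refl 3) F

/-- the element with the coefficients `c` -/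
def toF (g : F) (c : K4) : F := io F c.c0 + io F c.c1 * g + io F c.c2 * g ^ 2 + io F c.c3 * g ^ 3

/-- lane `i` of `X` represents `u` -/
def R (g : F) (i : ℕ) (X : Q) (u : F) : Prop := ∃ c : K4, Rq i X c ∧ u = toF g c

variable {g : F}

theorem three_eq_zero : (3 : F) = 0 := by
  have h := CharP.cast_eq_zero F 3
  exact_mod_cast h

theorem R.zero (i : ℕ) : R g i .zero 0 :=
  ⟨⟨0, 0, 0, 0⟩, ⟨T.Rt.zero i, T.Rt.zero i, T.Rt.zero i, T.Rt.zero i⟩, by simp [toF]⟩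

variable {i : ℕ} {X Y : Q} {u v : F}

theorem R.add (hx : R g i X u) (hy : R g i Y v) : R g i (X.add Y) (u + v) := by
  obtain ⟨c, ⟨a0, a1, a2, a3⟩, rfl⟩ := hx
  obtain ⟨d, ⟨b0, b1, b2, b3⟩, rfl⟩ := hy
  refine ⟨⟨c.c0 + d.c0, c.c1 + d.c1, c.c2 + d.c2, c.c3 + d.c3⟩, ⟨a0.add b0, a1.add b1, a2.add b2, a3.add b3⟩, ?_⟩
  simp only [toF, map_add]
  ring

theorem R.sub (hx : R g i X u) (hy : R g i Y v) : R g i (X.sub Y) (u - v) := by
  obtain ⟨c, ⟨a0, a1, a2, a3⟩, rfl⟩ := hx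
  obtain ⟨d, ⟨b0, b1, b2, b3⟩, rfl⟩ := hy
  refine ⟨⟨c.c0 - d.c0, c.c1 - d.c1, c.c2 - d.c2, c.c3 - d.c3⟩, ⟨a0.sub b0, a1.sub b1, a2.sub b2, a3.sub b3⟩, ?_⟩
  simp only [toF, map_sub]
  ring

theorem R.neg (hx : R g i X u) : R g i X.neg (-u) := by
  obtain ⟨c, ⟨a0, a1, a2, a3⟩, rfl⟩ := hx
  refine ⟨⟨-c.c0, -c.c1, -c.c2, -c.c3⟩, ⟨a0.neg, a1.neg, a2.neg, a3.neg⟩, ?_⟩
  simp only [toF, map_neg]
  ring

theorem R.mulg (hg : g ^ 4 = -g + 1) (hx : R g i X u) : R g i X.mulg (g * u) := by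
  obtain ⟨c, ⟨a0, a1, a2, a3⟩, rfl⟩ := hx
  refine ⟨⟨c.c3, c.c0 - c.c3, c.c1, c.c2⟩, ⟨a3, a0.sub a3, a1, a2⟩, ?_⟩
  simp only [toF, map_sub]
  linear_combination (io F c.c3) * hg

theorem toF_mul (hg : g ^ 4 = -g + 1) (c d : K4) : toF g (c.mul d) = toF g c * toF g d := by
  simp only [toF, K4.mul, map_add, map_sub, map_mul]
  linear_combination (-(io F c.c1 * io F d.c3 + io F c.c2 * io F d.c2 + io F c.c3 * io F d.c1) -
    (io F c.c2 * io F d.c3 + io F c.c3 * io F d.c2) * g - io F c.c3 * io F d.c3 * g ^ 2) * hg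

theorem R.mul (hg : g ^ 4 = -g + 1) (hx : R g i X u) (hy : R g i Y v) : R g i (X.mul Y) (u * v) := by
  obtain ⟨c, ⟨a0, a1, a2, a3⟩, rfl⟩ := hx
  obtain ⟨d, ⟨b0, b1, b2, b3⟩, rfl⟩ := hy
  refine ⟨c.mul d, ⟨?_, ?_, ?_, ?_⟩, (toF_mul hg c d).symm⟩
  · exact (a0.mul b0).add (((a1.mul b3).add (a2.mul b2)).add (a3.mul b1))
  · exact (((a0.mul b1).add (a1.mul b0)).sub (((a1.mul b3).add (a2.mul b2)).add (a3.mul b1))).add
      ((a2.mul b3).add (a3.mul b2))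
  · exact ((((a0.mul b2).add (a1.mul b1)).add (a2.mul b0)).sub ((a2.mul b3).add (a3.mul b2))).add (a3.mul b3)
  · exact ((((a0.mul b3).add (a1.mul b2)).add (a2.mul b1)).add (a3.mul b0)).sub (a3.mul b3)

theorem io_cube (a : ZMod 3) : (io F a) ^ 3 = io F a := by
  rw [← map_pow]
  congr 1
  revert a
  decide

theorem R.frob (hg : g ^ 4 = -g + 1) (hx : R g i X u) : R g i X.frob (u ^ 3) := by
  obtain ⟨c, ⟨a0, a1, a2, a3⟩, rfl⟩ := hx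
  refine ⟨⟨c.c0, c.c3, c.c2 + c.c3, c.c1 - c.c2 + c.c3⟩, ⟨a0, a3, a2.add a3, (a1.sub a2).add a3⟩, ?_⟩
  have : Fact (Nat.Prime 3) := ⟨by norm_num⟩
  have h6 : g ^ 6 = - g ^ 3 + g ^ 2 := by linear_combination g ^ 2 * hg
  have h9 : g ^ 9 = g ^ 3 + g ^ 2 + g := by
    have h3 := three_eq_zero (F := F)
    linear_combination (g ^ 5 - g ^ 2 + g) * hg + (- g ^ 2) * h3
  have key : toF g c ^ 3 = io F c.c0 + io F c.c1 * g ^ 3 + io F c.c2 * g ^ 6 + io F c.c3 * g ^ 9 := by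
    rw [toF, add_pow_char, add_pow_char, add_pow_char, mul_pow, mul_pow, mul_pow, io_cube, io_cube, io_cube, io_cube]
    ring
  rw [key, h6, h9]
  simp only [toF, map_add, map_sub]
  ring

/-! ### the zero test -/

/-- coefficients as a quadruple -/
abbrev P4 : Type := ZMod 3 × ZMod 3 × ZMod 3 × ZMod 3

/-- product of quadruples -/
def pmul (x y : P4) : P4 :=
  (x.1 * y.1 + (x.2.1 * y.2.2.2 + x.2.2.1 * y.2.2.1 + x.2.2.2 * y.2.1),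
    x.1 * y.2.1 + x.2.1 * y.1 - (x.2.1 * y.2.2.2 + x.2.2.1 * y.2.2.1 + x.2.2.2 * y.2.1) +
      (x.2.2.1 * y.2.2.2 + x.2.2.2 * y.2.2.1),
    x.1 * y.2.2.1 + x.2.1 * y.2.1 + x.2.2.1 * y.1 - (x.2.2.1 * y.2.2.2 + x.2.2.2 * y.2.2.1) + x.2.2.2 * y.2.2.2,
    x.1 * y.2.2.2 + x.2.1 * y.2.2.1 + x.2.2.1 * y.2.1 + x.2.2.2 * y.1 - x.2.2.2 * y.2.2.2)

set_option maxRecDepth 20000 in
theorem exists_pinv : ∀ x : P4, x ≠ 0 → ∃ y : P4, pmul x y = (1, 0, 0, 0) := by decide +kernel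

theorem toF_eq_zero (hg : g ^ 4 = -g + 1) {c : K4} (h : toF g c = 0) : c.c0 = 0 ∧ c.c1 = 0 ∧ c.c2 = 0 ∧ c.c3 = 0 := by
  by_contra hcon
  have h0 : ((c.c0, c.c1, c.c2, c.c3) : P4) ≠ 0 := by
    intro h1
    apply hcon
    simpa [Prod.ext_iff] using h1
  obtain ⟨y, hy⟩ := exists_pinv _ h0
  have h1 : K4.mul c ⟨y.1, y.2.1, y.2.2.1, y.2.2.2⟩ = ⟨1, 0, 0, 0⟩ := by
    simp only [pmul, Prod.mk.injEq] at hy
    obtain ⟨e0, e1, e2, e3⟩ := hy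
    simp only [K4.mul]
    rw [e0, e1, e2, e3]
  have h2 := toF_mul hg c ⟨y.1, y.2.1, y.2.2.1, y.2.2.2⟩
  rw [h1, h, zero_mul] at h2
  simp [toF] at h2

/-- **the zero test** -/
theorem R.nz (hg : g ^ 4 = -g + 1) (hx : R g i X u) (hu : u = 0) : X.nz.testBit i = false := by
  obtain ⟨c, ⟨a0, a1, a2, a3⟩, rfl⟩ := hx
  obtain ⟨e0, e1, e2, e3⟩ := toF_eq_zero hg hu
  rw [Q.nz, Nat.testBit_or, Nat.testBit_or, Nat.testBit_or, a0.1, a1.1, a2.1, a3.1, e0, e1, e2, e3]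
  decide

end field

end Cfsg.Agent.H516.BS
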