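import Cfsg.Agent.H516.BS.Compact

/-!
# Fast compaction of lanes (helper516, S5925)

`comp N M rs k` : the lanes `i < N` of the mask `M` of all registers are gathered, `k N' rs'` gets the new number of lanes
and the new registers (all planes forced).

* few survivors : the planes are folded by `(X &&& Mᵣ) % (2 ^ P - 1)`, where the masks `Mᵣ` (computed by prefix or)
  partition `M` in classes with distinct residues modulo `P`;
* then all planes are packed in one number and moved by the network of `Compact`.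
-/

set_option autoImplicit false
set_option linter.unusedSectionVars false

namespace Cfsg.Agent.H516.BS.CM

open Cfsg.Agent.H728.BS Cfsg.Agent.H516.BS.C

/-! ### folding modulo `2 ^ P - 1` -/

theorem add_eq_lor : ∀ {x y : ℕ}, x &&& y = 0 → x + y = x ||| y := by
  intro x
  induction x using Nat.strong_induction_on with
  | _ x ih =>
    intro y h
    rcases Nat.eq_zero_or_pos x with rfl | hx
    · simp
    · have hb : ∀ j, ¬ (x.testBit j = true ∧ y.testBit j = true) := by
        intro j hj
        have h3 : (x &&& y).testBit j = true := by rw [Nat.testBit_and, hj.1, hj.2]; rfl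
        rw [h, Nat.zero_testBit] at h3
        exact absurd h3 (by simp)
      have h2 : x / 2 &&& y / 2 = 0 := by
        apply Nat.eq_of_testBit_eq
        intro j
        rw [Nat.testBit_and, Nat.zero_testBit, Nat.testBit_div_two, Nat.testBit_div_two]
        by_contra hc
        rw [Bool.not_eq_false, Bool.and_eq_true] at hc
        exact hb _ hc
      have h3 := ih (x / 2) (Nat.div_lt_self hx (by norm_num)) h2
      have h4 : (x ||| y) / 2 = x / 2 ||| y / 2 := by
        apply Nat.eq_of_testBit_eq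
        intro j
        rw [Nat.testBit_or, Nat.testBit_div_two, Nat.testBit_div_two, Nat.testBit_div_two, Nat.testBit_or]
      have h5 : (x ||| y) % 2 = x % 2 + y % 2 := by
        have h6 := hb 0
        have e : ∀ z : ℕ, z % 2 = (z.testBit 0).toNat := by
          intro z
          rw [Nat.testBit_zero]
          rcases Nat.mod_two_eq_zero_or_one z with h | h <;> simp [h]
        rw [e, e, e, Nat.testBit_or]
        revert h6
        cases x.testBit 0 <;> cases y.testBit 0 <;> simp
      omega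

theorem fold_exists {P : ℕ} (hP : 0 < P) : ∀ X : ℕ,
    (∀ i i', X.testBit i = true → X.testBit i' = true → i % P = i' % P → i = i') →
    ∃ Y, Y < 2 ^ P ∧ X % (2 ^ P - 1) = Y % (2 ^ P - 1) ∧
      ∀ j, Y.testBit j = true ↔ ∃ i, X.testBit i = true ∧ i % P = j := by
  intro X
  induction X using Nat.strong_induction_on with
  | _ X ih =>
    intro hX
    by_cases hlt : X < 2 ^ P
    · refine ⟨X, hlt, rfl, fun j => ⟨fun h => ⟨j, h, Nat.mod_eq_of_lt ?_⟩, fun h => ?_⟩⟩
      · by_contra hc
        have h1 := Nat.ge_two_pow_of_testBit h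
        have h2 : 2 ^ P ≤ 2 ^ j := Nat.pow_le_pow_right (by norm_num) (not_lt.1 hc)
        omega
      · obtain ⟨i, hi, hj⟩ := h
        have hiP : i < P := by
          by_contra hc
          have h1 := Nat.ge_two_pow_of_testBit hi
          have h2 : 2 ^ P ≤ 2 ^ i := Nat.pow_le_pow_right (by norm_num) (not_lt.1 hc)
          omega
        rw [Nat.mod_eq_of_lt hiP] at hj
        rwa [← hj]
    · have hL : ∀ j, (X % 2 ^ P).testBit j = (decide (j < P) && X.testBit j) := fun j => Nat.testBit_mod_two_pow X P j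
      have hH : ∀ j, (X / 2 ^ P).testBit j = X.testBit (P + j) := by
        intro j
        rw [← Nat.shiftRight_eq_div_pow, Nat.testBit_shiftRight]
      have hdis : X % 2 ^ P &&& X / 2 ^ P = 0 := by
        apply Nat.eq_of_testBit_eq
        intro j
        rw [Nat.testBit_and, Nat.zero_testBit, hL, hH]
        by_contra hc
        rw [Bool.not_eq_false, Bool.and_eq_true, Bool.and_eq_true] at hc
        have h1 := hX j (P + j) hc.1.2 hc.2 (by rw [Nat.add_mod_left])
        omega
      have h2P : 0 < 2 ^ P := by positivity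
      have hq : 0 < X / 2 ^ P := Nat.div_pos (not_lt.1 hlt) h2P
      have hdm := Nat.div_add_mod X (2 ^ P)
      have hP2 : 2 ≤ 2 ^ P := by
        calc 2 = 2 ^ 1 := rfl
          _ ≤ 2 ^ P := Nat.pow_le_pow_right (by norm_num) hP
      have hsmall : X % 2 ^ P + X / 2 ^ P < X := by
        have h1 : 2 * (X / 2 ^ P) ≤ 2 ^ P * (X / 2 ^ P) := Nat.mul_le_mul_right _ hP2
        omega
      have hmod : X % (2 ^ P - 1) = (X % 2 ^ P + X / 2 ^ P) % (2 ^ P - 1) := by
        have h1 : X = (X % 2 ^ P + X / 2 ^ P) + (2 ^ P - 1) * (X / 2 ^ P) := by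
          have h2 : 2 ^ P * (X / 2 ^ P) = (2 ^ P - 1) * (X / 2 ^ P) + X / 2 ^ P := by
            obtain ⟨a, ha⟩ := Nat.exists_eq_add_of_le (show 1 ≤ 2 ^ P by omega)
            rw [ha, show 1 + a - 1 = a by omega]
            ring
          omega
        conv_lhs => rw [h1]
        rw [Nat.add_mul_mod_self_left]
      have hbit : ∀ j, (X % 2 ^ P + X / 2 ^ P).testBit j = ((decide (j < P) && X.testBit j) || X.testBit (P + j)) := by
        intro j
        rw [add_eq_lor hdis, Nat.testBit_or, hL, hH]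
      have key : ∀ j, (X % 2 ^ P + X / 2 ^ P).testBit j = true ↔
          (j < P ∧ X.testBit j = true) ∨ X.testBit (P + j) = true := by
        intro j
        rw [hbit, Bool.or_eq_true, Bool.and_eq_true, decide_eq_true_eq]
      obtain ⟨Y, hY, hYm, hYb⟩ := ih _ hsmall (by
        intro i i' hi hi' hm
        rw [key] at hi hi'
        rcases hi with ⟨h1, h2⟩ | h2 <;> rcases hi' with ⟨h3, h4⟩ | h4
        · exact hX _ _ h2 h4 hm
        · have := hX i (P + i') h2 h4 (by rw [Nat.add_mod_left]; exact hm)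
          omega
        · have := hX (P + i) i' h2 h4 (by rw [Nat.add_mod_left]; exact hm)
          omega
        · have := hX (P + i) (P + i') h2 h4 (by rw [Nat.add_mod_left, Nat.add_mod_left]; exact hm)
          omega)
      refine ⟨Y, hY, by rw [hmod, hYm], fun j => ?_⟩
      rw [hYb]
      constructor
      · rintro ⟨i, hi, hj⟩
        rw [key] at hi
        rcases hi with ⟨_, h2⟩ | h2
        · exact ⟨i, h2, hj⟩
        · exact ⟨P + i, h2, by rw [Nat.add_mod_left]; exact hj⟩
      · rintro ⟨i, hi, hj⟩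
        by_cases hiP : i < P
        · exact ⟨i, (key i).2 (Or.inl ⟨hiP, hi⟩), hj⟩
        · obtain ⟨a, ha⟩ := Nat.exists_eq_add_of_le (not_lt.1 hiP)
          refine ⟨a, (key a).2 (Or.inr (by rwa [← ha])), ?_⟩
          rw [ha, Nat.add_mod_left] at hj
          exact hj

/-- **The fold**: on the lanes of a mask with distinct residues. -/
theorem fold_bit {P : ℕ} (hP : 0 < P) {M : ℕ}
    (hM : ∀ i i', M.testBit i = true → M.testBit i' = true → i % P = i' % P → i = i')
    (hM0 : M % (2 ^ P - 1) ≠ 0) {i : ℕ} (hi : M.testBit i = true) (X : ℕ) :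
    ((X &&& M) % (2 ^ P - 1)).testBit (i % P) = X.testBit i := by
  obtain ⟨Y, hY, hYm, hYb⟩ := fold_exists hP M hM
  have hXM : ∀ j, (X &&& M).testBit j = true → X.testBit j = true ∧ M.testBit j = true := by
    intro j h
    rwa [Nat.testBit_and, Bool.and_eq_true] at h
  obtain ⟨Z, hZ, hZm, hZb⟩ := fold_exists hP (X &&& M) fun i i' h h' =>
    hM i i' (hXM i h).2 (hXM i' h').2
  have hYlt : Y < 2 ^ P - 1 := by
    rcases Nat.lt_or_ge Y (2 ^ P - 1) with h | h
    · exact h
    · exfalso
      have : Y = 2 ^ P - 1 := by omega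
      rw [this, Nat.mod_self] at hYm
      exact hM0 hYm
  have hZY : Z ≤ Y := by
    have : Z &&& Y = Z := by
      apply Nat.eq_of_testBit_eq
      intro j
      rw [Nat.testBit_and]
      by_cases h : Z.testBit j = true
      · obtain ⟨i, hi, hj⟩ := (hZb j).1 h
        have h2 : Y.testBit j = true := (hYb j).2 ⟨i, (hXM i hi).2, hj⟩
        rw [h, h2]
        rfl
      · rw [Bool.eq_false_of_not_eq_true h]
        rfl
    rw [← this]
    exact Nat.and_le_right
  rw [hZm, Nat.mod_eq_of_lt (by omega)]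
  by_cases h : X.testBit i = true
  · rw [h]
    exact (hZb _).2 ⟨i, by rw [Nat.testBit_and, h, hi]; rfl, rfl⟩
  · rw [Bool.eq_false_of_not_eq_true h]
    by_contra hc
    rw [Bool.not_eq_false] at hc
    obtain ⟨i', hi', hj⟩ := (hZb _).1 hc
    have h1 := hM i' i (hXM i' hi').2 hi hj
    rw [h1] at hi'
    exact h (hXM i hi').1

/-- Prefix or over blocks. -/
noncomputable def px (T : ℕ) : ℕ → ℕ → ℕ :=
  Nat.rec (motive := fun _ => ℕ → ℕ → ℕ) (fun _ E => E)
    (fun _ ih s E => fc (Nat.lor E (Nat.shiftLeft E s)) fun E' => fc (Nat.mul 2 s) fun s' => ih s' E') T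

theorem px_succ (T s E : ℕ) : px (T + 1) s E = px T (2 * s) (E ||| E <<< s) := rfl

theorem px_of : ∀ (T s E j t : ℕ), t < 2 ^ T → t * s ≤ j → E.testBit (j - t * s) = true → (px T s E).testBit j = true := by
  intro T
  induction T with
  | zero =>
    intro s E j t ht _ h
    have : t = 0 := by simpa using ht
    subst this
    rw [zero_mul, Nat.sub_zero] at h
    exact h
  | succ T ih =>
    intro s E j t ht hj h
    rw [px_succ]
    rcases Nat.even_or_odd' t with ⟨a, ha | ha⟩
    · have e : t * s = a * (2 * s) := by rw [ha]; ring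
      refine ih (2 * s) _ j a (by rw [pow_succ] at ht; omega) (by rw [← e]; exact hj) ?_
      rw [← e, Nat.testBit_or, h, Bool.true_or]
    · have e : t * s = a * (2 * s) + s := by rw [ha]; ring
      refine ih (2 * s) _ j a (by rw [pow_succ] at ht; omega) (by omega) ?_
      rw [Nat.testBit_or, Nat.testBit_shiftLeft, decide_eq_true (by omega), Bool.true_and,
        show j - a * (2 * s) - s = j - t * s by omega, h, Bool.or_true]

/-- The classes with distinct residues. -/
noncomputable def gen1 (P T m F : ℕ) : ℕ → (List ℕ → ℕ → Bool) → Bool → Bool :=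
  Nat.rec (motive := fun _ => ℕ → (List ℕ → ℕ → Bool) → Bool → Bool)
    (fun rest k kf => Bool.rec (motive := fun _ => Bool) kf (k [] 0) (Nat.beq rest 0))
    (fun _ ih rest k kf => Bool.rec (motive := fun _ => Bool)
      (fc (px T P (Nat.shiftLeft rest P)) fun E =>
        fc (Nat.land rest E) fun rest' =>
        fc (Nat.xor rest rest') fun Mr =>
        Bool.rec (motive := fun _ => Bool)
          (ih rest' (fun l c => fc (Nat.succ c) fun c' => k (Mr :: l) c') kf) kf (Nat.beq (Nat.mod Mr m) 0))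
      (k [] 0) (Nat.beq rest 0)) F

/-- The folded plane. -/
noncomputable def fd (P m : ℕ) (l : List ℕ) (X : ℕ) : ℕ :=
  List.rec (motive := fun _ => ℕ) 0 (fun Mr _ ih => Nat.lor (Nat.mod (Nat.land X Mr) m) (Nat.shiftLeft ih P)) l

theorem fd_nil (P m X : ℕ) : fd P m [] X = 0 := rfl

theorem fd_cons (P m X Mr : ℕ) (l : List ℕ) : fd P m (Mr :: l) X = ((X &&& Mr) % m) ||| (fd P m l X <<< P) := rfl

theorem fd_zero (P m : ℕ) (l : List ℕ) : fd P m l 0 = 0 := by
  induction l with
  | nil => rfl
  | cons Mr l ih => rw [fd_cons, ih]; simp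

theorem brec_ff {b c d : Bool} (h : Bool.rec (motive := fun _ => Bool) c d b = true) :
    (b = true ∧ d = true) ∨ (b = false ∧ c = true) := by
  cases b
  · exact Or.inr ⟨rfl, h⟩
  · exact Or.inl ⟨rfl, h⟩

theorem gen1_sound {P T : ℕ} (hP : 0 < P) : ∀ (F rest : ℕ) (k : List ℕ → ℕ → Bool) (kf : Bool),
    gen1 P T (2 ^ P - 1) F rest k kf = true → (∀ i, rest.testBit i = true → i < 2 ^ T * P) → kf = true ∨
      ∃ l c, k l c = true ∧ ∀ i, rest.testBit i = true →
        ∃ j, j < c * P ∧ ∀ X, (fd P (2 ^ P - 1) l X).testBit j = X.testBit i := by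
  intro F
  induction F with
  | zero =>
    intro rest k kf h _
    rcases brec_ff h with ⟨h1, h2⟩ | ⟨_, h2⟩
    · refine Or.inr ⟨[], 0, h2, fun i hi => ?_⟩
      rw [Nat.eq_of_beq_eq_true h1, Nat.zero_testBit] at hi
      exact absurd hi (by simp)
    · exact Or.inl h2
  | succ F ih =>
    intro rest k kf h hb
    rcases brec_ff h with ⟨h1, h2⟩ | ⟨_, h2⟩
    · refine Or.inr ⟨[], 0, h2, fun i hi => ?_⟩
      rw [Nat.eq_of_beq_eq_true h1, Nat.zero_testBit] at hi
      exact absurd hi (by simp)
    · clear h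
      obtain ⟨E, hE⟩ : ∃ E, px T P (Nat.shiftLeft rest P) = E := ⟨_, rfl⟩
      have h3 : Bool.rec (motive := fun _ => Bool)
          (gen1 P T (2 ^ P - 1) F (rest &&& E) (fun l c => k ((rest ^^^ (rest &&& E)) :: l) (c + 1)) kf) kf
          (Nat.beq ((rest ^^^ (rest &&& E)) % (2 ^ P - 1)) 0) = true := by
        rw [← hE]
        exact h2
      rcases brec_ff h3 with ⟨_, h4⟩ | ⟨h5, h4⟩
      · exact Or.inl h4
      · have hM0 : (rest ^^^ (rest &&& E)) % (2 ^ P - 1) ≠ 0 := by
          intro hc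
          rw [hc] at h5
          exact absurd h5 (by decide)
        rcases ih _ _ _ h4 (by
          intro i hi
          rw [Nat.testBit_and, Bool.and_eq_true] at hi
          exact hb i hi.1) with h6 | ⟨l, c, hk, hl⟩
        · exact Or.inl h6
        · refine Or.inr ⟨_, _, hk, fun i hi => ?_⟩
          have hMr : ∀ j, (rest ^^^ (rest &&& E)).testBit j = true → rest.testBit j = true ∧ E.testBit j = false := by
            intro j hj
            rw [Nat.testBit_xor, Nat.testBit_and] at hj
            revert hj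
            cases rest.testBit j <;> cases E.testBit j <;> simp
          have hlt : ∀ i i', rest.testBit i = true → rest.testBit i' = true → i % P = i' % P → i < i' →
              E.testBit i' = true := by
            intro i i' hr hr' hm hii
            obtain ⟨t, ht⟩ : ∃ t, i' = i + (t + 1) * P := by
              have h7 : (i' - i) % P = 0 := by
                have := (Nat.modEq_iff_dvd' hii.le).1 (show i ≡ i' [MOD P] from hm)
                exact Nat.mod_eq_zero_of_dvd this
              obtain ⟨q, hq⟩ := Nat.dvd_of_mod_eq_zero h7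
              rcases q with _ | q
              · rw [mul_zero] at hq
                omega
              · exact ⟨q, by rw [mul_comm]; omega⟩
            rw [← hE]
            have hbd := hb i' hr'
            have ht2 : t < 2 ^ T := by
              by_contra hc
              have h9 : 2 ^ T * P ≤ (t + 1) * P := Nat.mul_le_mul_right _ (by omega)
              omega
            refine px_of T P _ i' t ht2 ?_ ?_
            · rw [ht, add_mul, one_mul]
              omega
            · show (rest <<< P).testBit _ = true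
              rw [Nat.testBit_shiftLeft]
              have e : i' - t * P = i + P := by
                rw [ht, add_mul, one_mul]
                omega
              rw [e, decide_eq_true (by omega), Nat.add_sub_cancel, hr]
              rfl
          have hinj : ∀ i i', (rest ^^^ (rest &&& E)).testBit i = true → (rest ^^^ (rest &&& E)).testBit i' = true →
              i % P = i' % P → i = i' := by
            intro i i' h7 h8 hm
            rcases Nat.lt_trichotomy i i' with h9 | h9 | h9
            · have := hlt i i' (hMr i h7).1 (hMr i' h8).1 hm h9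
              rw [(hMr i' h8).2] at this
              exact absurd this (by simp)
            · exact h9
            · have := hlt i' i (hMr i' h8).1 (hMr i h7).1 hm.symm h9
              rw [(hMr i h7).2] at this
              exact absurd this (by simp)
          by_cases hEi : E.testBit i = true
          · obtain ⟨j, hj, hX⟩ := hl i (by rw [Nat.testBit_and, hi, hEi]; rfl)
            refine ⟨j + P, by rw [add_mul, one_mul]; omega, fun X => ?_⟩
            have h7 : ((X &&& (rest ^^^ (rest &&& E))) % (2 ^ P - 1)).testBit (j + P) = false := by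
              apply Nat.testBit_lt_two_pow
              have h2P : 2 ≤ 2 ^ P := by
                calc 2 = 2 ^ 1 := rfl
                  _ ≤ 2 ^ P := Nat.pow_le_pow_right (by norm_num) hP
              have h8 : (X &&& (rest ^^^ (rest &&& E))) % (2 ^ P - 1) < 2 ^ P - 1 := Nat.mod_lt _ (by omega)
              have h9 : 2 ^ P ≤ 2 ^ (j + P) := Nat.pow_le_pow_right (by norm_num) (by omega)
              omega
            rw [fd_cons, Nat.testBit_or, h7, Nat.testBit_shiftLeft, decide_eq_true (by omega), Nat.add_sub_cancel, hX]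
            simp
          · have hMi : (rest ^^^ (rest &&& E)).testBit i = true := by
              rw [Nat.testBit_xor, Nat.testBit_and, hi, Bool.eq_false_of_not_eq_true hEi]
              rfl
            refine ⟨i % P, ?_, fun X => ?_⟩
            · have := Nat.mod_lt i hP
              rw [add_mul, one_mul]
              omega
            · rw [fd_cons, Nat.testBit_or, fold_bit hP hinj hM0 hMi, Nat.testBit_shiftLeft,
                decide_eq_false (by have := Nat.mod_lt i hP; omega)]
              simp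

/-! ### the packed network -/

/-- The way of a lane in a network. -/
inductive Path : Sl → ℕ → ℕ → Prop
  | nil (i : ℕ) : Path .nil i i
  | stay {s a b : ℕ} {tl : Sl} {i j : ℕ} : a.testBit i = true → b.testBit i = false → Path tl i j →
      Path (.cons s a b tl) i j
  | move {s a b : ℕ} {tl : Sl} {i j : ℕ} : b.testBit i = true → a.testBit i = false → Path tl i j →
      Path (.cons s a b tl) (s + i) j

theorem gen_path (K0 : ℕ) : ∀ (K s M mk : ℕ) (k : Sl → ℕ → Bool), gen K0 K s M mk k = true →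
    ∃ l Mf, k l Mf = true ∧ ∀ i, M.testBit i = true → ∃ j, Mf.testBit j = true ∧ Path l i j := by
  intro K
  induction K with
  | zero =>
    intro s M mk k h
    exact ⟨.nil, M, h, fun i hi => ⟨i, hi, .nil i⟩⟩
  | succ K ih =>
    intro s M mk k h
    obtain ⟨mp, hmp⟩ : ∃ mp, pp K0 1 mk = mp := ⟨_, rfl⟩
    have h' : Bool.rec (motive := fun _ => Bool) false
        (Bool.rec (motive := fun _ => Bool) false
          (gen K0 K (2 * s) ((M ^^^ (mp &&& M)) ||| ((mp &&& M) >>> s)) (mk ^^^ (mk &&& mp)) fun l Mf =>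
            k (Sl.cons s (M ^^^ (mp &&& M)) ((mp &&& M) >>> s) l) Mf)
          (Nat.beq ((M ^^^ (mp &&& M)) &&& ((mp &&& M) >>> s)) 0))
        (Nat.beq (((mp &&& M) >>> s) <<< s) (mp &&& M)) = true := by
      rw [← hmp]
      exact h
    obtain ⟨h1, h⟩ := brec_true h'
    obtain ⟨h2, h⟩ := brec_true h
    replace h1 := Nat.eq_of_beq_eq_true h1
    replace h2 := Nat.eq_of_beq_eq_true h2
    obtain ⟨l, Mf, hk, hl⟩ := ih _ _ _ _ h
    refine ⟨_, Mf, hk, fun i hi => ?_⟩
    generalize (mp &&& M) = mv at *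
    generalize hb : mv >>> s = b at *
    generalize ha : M ^^^ mv = a at *
    have hab : ∀ j, ¬(a.testBit j = true ∧ b.testBit j = true) := by
      intro j hj
      have h3 : (a &&& b).testBit j = true := by rw [Nat.testBit_and, hj.1, hj.2]; rfl
      rw [h2, Nat.zero_testBit] at h3
      exact absurd h3 (by simp)
    by_cases hm : mv.testBit i = true
    · have h4 : (b <<< s).testBit i = true := by rw [h1]; exact hm
      rw [Nat.testBit_shiftLeft, Bool.and_eq_true, decide_eq_true_eq] at h4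
      obtain ⟨h5, h6⟩ := h4
      have h7 : a.testBit (i - s) = false := by
        by_contra hc
        exact hab _ ⟨by simpa using hc, h6⟩
      obtain ⟨j, hj, hp⟩ := hl (i - s) (by rw [Nat.testBit_or, h6, Bool.or_true])
      refine ⟨j, hj, ?_⟩
      have h8 := Path.move (s := s) h6 h7 hp
      rwa [Nat.add_sub_cancel' h5] at h8
    · have h8 : a.testBit i = true := by
        rw [← ha, Nat.testBit_xor, hi, Bool.eq_false_of_not_eq_true hm]
        rfl
      have h9 : b.testBit i = false := by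
        by_contra hc
        exact hab _ ⟨h8, by simpa using hc⟩
      obtain ⟨j, hj, hp⟩ := hl i (by rw [Nat.testBit_or, h8, Bool.true_or])
      exact ⟨j, hj, Path.stay h8 h9 hp⟩

theorem net_path {N K M : ℕ} {k : Sl → ℕ → Bool} (h : net N K M k = true) :
    ∃ l Mf, k l Mf = true ∧ ∀ i, M.testBit i = true → ∃ j, Mf.testBit j = true ∧ Path l i j := by
  unfold net at h
  rw [fc_eq] at h
  exact gen_path _ _ _ _ _ _ h

theorem Path.le {l : Sl} {i j : ℕ} (h : Path l i j) : j ≤ i := by
  induction h with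
  | nil i => exact le_refl _
  | stay _ _ _ ih => exact ih
  | move _ _ _ ih => omega

/-- The network on packed planes. -/
noncomputable def runsC (O C : ℕ) (l : Sl) : ℕ → ℕ :=
  Sl.rec (motive := fun _ => ℕ → ℕ) (fun X => X)
    (fun s a b _ ih X => fc (Nat.mul (Nat.land a O) C) fun a' => fc (Nat.mul (Nat.land b O) C) fun b' =>
      fc (st s a' b' X) ih) l

theorem runsC_nil (O C X : ℕ) : runsC O C .nil X = X := rfl

theorem runsC_cons (O C s a b : ℕ) (l : Sl) (X : ℕ) :
    runsC O C (.cons s a b l) X = runsC O C l (st s ((a &&& O) * C) ((b &&& O) * C) X) := rfl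

theorem cmask {S K : ℕ} {i q : ℕ} (hi : i < S) (hq : q < K) (a : ℕ) :
    ((a &&& (2 ^ S - 1)) * comb S K).testBit (i + q * S) = a.testBit i := by
  have h1 : a &&& (2 ^ S - 1) < 2 ^ S := by
    rw [Nat.and_two_pow_sub_one_eq_mod]
    exact Nat.mod_lt _ (by positivity)
  rw [mul_comb_testBit (by omega) h1 K hq hi, Nat.testBit_and, Nat.testBit_two_pow_sub_one, decide_eq_true hi,
    Bool.and_true]

theorem Path.runsC {l : Sl} {i j : ℕ} (h : Path l i j) {S K : ℕ} (hi : i < S) {q : ℕ} (hq : q < K) (W : ℕ) :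
    (runsC (2 ^ S - 1) (comb S K) l W).testBit (j + q * S) = W.testBit (i + q * S) := by
  induction h generalizing W with
  | nil i => rfl
  | @stay s a b tl i j ha hb hp ih =>
    rw [runsC_cons, ih hi, st_testBit, cmask hi hq, cmask hi hq, ha, hb]
    simp
  | @move s a b tl i j hb ha hp ih =>
    have hi' : i < S := by omega
    rw [runsC_cons, ih hi', st_testBit, cmask hi' hq, cmask hi' hq, ha, hb, show s + (i + q * S) = s + i + q * S by ring]
    simp

/-! ### packing -/

/-- One more plane. -/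
def p1 (S O X W : ℕ) : ℕ := Nat.lor (Nat.land X O) (Nat.shiftLeft W S)

theorem p1_lo {S X W i : ℕ} (hi : i < S) : (p1 S (2 ^ S - 1) X W).testBit (i + 0 * S) = X.testBit i := by
  show ((X &&& (2 ^ S - 1)) ||| (W <<< S)).testBit _ = _
  rw [zero_mul, add_zero, Nat.testBit_or, Nat.testBit_and, Nat.testBit_two_pow_sub_one, Nat.testBit_shiftLeft,
    decide_eq_true hi, decide_eq_false (by omega)]
  simp

theorem p1_hi {S X W i : ℕ} (q : ℕ) :
    (p1 S (2 ^ S - 1) X W).testBit (i + (q + 1) * S) = W.testBit (i + q * S) := by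
  show ((X &&& (2 ^ S - 1)) ||| (W <<< S)).testBit _ = _
  have e : i + (q + 1) * S = (i + q * S) + S := by ring
  rw [e, Nat.testBit_or, Nat.testBit_and, Nat.testBit_two_pow_sub_one, Nat.testBit_shiftLeft,
    decide_eq_false (show ¬ (i + q * S + S < S) by omega), decide_eq_true (show i + q * S + S ≥ S by omega),
    Nat.add_sub_cancel]
  simp

/-- All planes in one number. -/
noncomputable def pk (S O : ℕ) (rs : List Q) : ℕ :=
  List.rec (motive := fun _ => ℕ) 0 (fun x _ W =>
    p1 S O x.c0.m (p1 S O x.c0.s (p1 S O x.c1.m (p1 S O x.c1.s (p1 S O x.c2.m (p1 S O x.c2.s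
      (p1 S O x.c3.m (p1 S O x.c3.s W)))))))) rs

theorem pk_cons (S O : ℕ) (x : Q) (rs : List Q) : pk S O (x :: rs) =
    p1 S O x.c0.m (p1 S O x.c0.s (p1 S O x.c1.m (p1 S O x.c1.s (p1 S O x.c2.m (p1 S O x.c2.s
      (p1 S O x.c3.m (p1 S O x.c3.s (pk S O rs)))))))) := rfl

/-- Unpacking. -/
noncomputable def up (S O : ℕ) (rs : List Q) : ℕ → (List Q → Bool) → Bool :=
  List.rec (motive := fun _ => ℕ → (List Q → Bool) → Bool) (fun _ k => k [])
    (fun _ _ ih W k =>
      fc (Nat.land W O) fun a0 => fc (Nat.shiftRight W S) fun W =>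
      fc (Nat.land W O) fun b0 => fc (Nat.shiftRight W S) fun W =>
      fc (Nat.land W O) fun a1 => fc (Nat.shiftRight W S) fun W =>
      fc (Nat.land W O) fun b1 => fc (Nat.shiftRight W S) fun W =>
      fc (Nat.land W O) fun a2 => fc (Nat.shiftRight W S) fun W =>
      fc (Nat.land W O) fun b2 => fc (Nat.shiftRight W S) fun W =>
      fc (Nat.land W O) fun a3 => fc (Nat.shiftRight W S) fun W =>
      fc (Nat.land W O) fun b3 => fc (Nat.shiftRight W S) fun W =>
      ih W fun rs' => k (⟨⟨a0, b0⟩, ⟨a1, b1⟩, ⟨a2, b2⟩, ⟨a3, b3⟩⟩ :: rs')) rs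

theorem shr_bit {S W : ℕ} {V : ℕ} {q : ℕ} (h : ∀ j, V.testBit j = W.testBit (j + q * S)) :
    ∀ j, (V >>> S).testBit j = W.testBit (j + (q + 1) * S) := by
  intro j
  rw [Nat.testBit_shiftRight, h]
  congr 1
  ring

theorem and_bit {S V j : ℕ} (hj : j < S) : (V &&& (2 ^ S - 1)).testBit j = V.testBit j := by
  rw [Nat.testBit_and, Nat.testBit_two_pow_sub_one, decide_eq_true hj, Bool.and_true]

/-- Lane `j` of `Y` is lane `i` of `X`. -/
def Lq (i j : ℕ) (X Y : Q) : Prop :=
  (Y.c0.m.testBit j = X.c0.m.testBit i ∧ Y.c0.s.testBit j = X.c0.s.testBit i) ∧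
  (Y.c1.m.testBit j = X.c1.m.testBit i ∧ Y.c1.s.testBit j = X.c1.s.testBit i) ∧
  (Y.c2.m.testBit j = X.c2.m.testBit i ∧ Y.c2.s.testBit j = X.c2.s.testBit i) ∧
  (Y.c3.m.testBit j = X.c3.m.testBit i ∧ Y.c3.s.testBit j = X.c3.s.testBit i)

theorem up_sound {S i j : ℕ} (hi : i < S) (hj : j < S) : ∀ (rs : List Q) (W : ℕ) (k : List Q → Bool),
    up S (2 ^ S - 1) rs W k = true →
    (∀ q < 8 * rs.length, W.testBit (j + q * S) = (pk S (2 ^ S - 1) rs).testBit (i + q * S)) →
    ∃ rs', k rs' = true ∧ List.Forall₂ (Lq i j) rs rs' := by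
  intro rs
  induction rs with
  | nil =>
    intro W k h _
    exact ⟨[], h, .nil⟩
  | cons x rs ih =>
    intro W k h hW
    have e0 : ∀ j, W.testBit j = W.testBit (j + 0 * S) := by intro j; rw [zero_mul, add_zero]
    have e1 := shr_bit e0
    have e2 := shr_bit e1
    have e3 := shr_bit e2
    have e4 := shr_bit e3
    have e5 := shr_bit e4
    have e6 := shr_bit e5
    have e7 := shr_bit e6
    have e8 := shr_bit e7
    have h8 : 8 * (x :: rs).length = 8 * rs.length + 8 := by rw [List.length_cons]; ring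
    rw [pk_cons] at hW
    obtain ⟨rs', hk, hrs⟩ := ih _ _ h (by
      intro q hq
      refine (e8 _).trans ?_
      have h1 := hW (q + 1 + 1 + 1 + 1 + 1 + 1 + 1 + 1) (by omega)
      have h2 : j + q * S + (0 + 1 + 1 + 1 + 1 + 1 + 1 + 1 + 1) * S = j + (q + 1 + 1 + 1 + 1 + 1 + 1 + 1 + 1) * S := by
        ring
      rw [h2, h1, p1_hi, p1_hi, p1_hi, p1_hi, p1_hi, p1_hi, p1_hi, p1_hi])
    refine ⟨_, hk, .cons ⟨⟨?_, ?_⟩, ⟨?_, ?_⟩, ⟨?_, ?_⟩, ⟨?_, ?_⟩⟩ hrs⟩
    · exact (and_bit hj).trans ((e0 j).trans ((hW 0 (by omega)).trans (p1_lo hi)))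
    · refine (and_bit hj).trans ((e1 j).trans ((hW (0 + 1) (by omega)).trans ?_))
      rw [p1_hi, p1_lo hi]
    · refine (and_bit hj).trans ((e2 j).trans ((hW (0 + 1 + 1) (by omega)).trans ?_))
      rw [p1_hi, p1_hi, p1_lo hi]
    · refine (and_bit hj).trans ((e3 j).trans ((hW (0 + 1 + 1 + 1) (by omega)).trans ?_))
      rw [p1_hi, p1_hi, p1_hi, p1_lo hi]
    · refine (and_bit hj).trans ((e4 j).trans ((hW (0 + 1 + 1 + 1 + 1) (by omega)).trans ?_))
      rw [p1_hi, p1_hi, p1_hi, p1_hi, p1_lo hi]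
    · refine (and_bit hj).trans ((e5 j).trans ((hW (0 + 1 + 1 + 1 + 1 + 1) (by omega)).trans ?_))
      rw [p1_hi, p1_hi, p1_hi, p1_hi, p1_hi, p1_lo hi]
    · refine (and_bit hj).trans ((e6 j).trans ((hW (0 + 1 + 1 + 1 + 1 + 1 + 1) (by omega)).trans ?_))
      rw [p1_hi, p1_hi, p1_hi, p1_hi, p1_hi, p1_hi, p1_lo hi]
    · refine (and_bit hj).trans ((e7 j).trans ((hW (0 + 1 + 1 + 1 + 1 + 1 + 1 + 1) (by omega)).trans ?_))
      rw [p1_hi, p1_hi, p1_hi, p1_hi, p1_hi, p1_hi, p1_hi, p1_lo hi]

/-! ### the two stages -/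

/-- Number of planes. -/
noncomputable def nq (rs : List Q) : ℕ := List.rec (motive := fun _ => ℕ) 0 (fun _ _ ih => Nat.add 8 ih) rs

theorem nq_eq (rs : List Q) : nq rs = 8 * rs.length := by
  induction rs with
  | nil => rfl
  | cons x rs ih =>
    have : nq (x :: rs) = 8 + nq rs := rfl
    rw [this, ih, List.length_cons]
    ring

/-- The packed network. -/
noncomputable def st2 (N M : ℕ) (rs : List Q) (k : ℕ → List Q → Bool) : Bool :=
  fc (Nat.succ (Nat.log2 N)) fun K => fc (Nat.sub (Nat.pow 2 N) 1) fun O => fc (comb N (nq rs)) fun C =>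
    net N K M fun l Mf => fc (Nat.succ (bl Mf K 0)) fun n' =>
      Bool.rec (motive := fun _ => Bool) false
        (fc (runsC O C l (pk N O rs)) fun W => up N O rs W fun rs' => k n' rs')
        (Nat.beq (Nat.shiftRight Mf n') 0)

theorem st2_sound {N M i : ℕ} {rs : List Q} {k : ℕ → List Q → Bool} (h : st2 N M rs k = true) (hi : i < N)
    (hm : M.testBit i = true) :
    ∃ N' rs' j, j < N' ∧ k N' rs' = true ∧ List.Forall₂ (Lq i j) rs rs' := by
  unfold st2 at h
  rw [fc_eq, fc_eq, fc_eq] at h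
  have hO : Nat.sub (Nat.pow 2 N) 1 = 2 ^ N - 1 := rfl
  rw [hO] at h
  obtain ⟨l, Mf, hk, hl⟩ := net_path h
  obtain ⟨j, hj, hp⟩ := hl i hm
  rw [fc_eq] at hk
  generalize Nat.succ (bl Mf (Nat.succ (Nat.log2 N)) 0) = n' at hk
  obtain ⟨h1, hk⟩ := brec_true hk
  rw [fc_eq] at hk
  have hjN : j < N := lt_of_le_of_lt hp.le hi
  obtain ⟨rs', hk', hrs⟩ := up_sound hi hjN rs _ _ hk (by
    intro q hq
    rw [← nq_eq] at hq
    exact hp.runsC hi hq _)
  refine ⟨n', rs', j, ?_, hk', hrs⟩
  by_contra hlt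
  have h2 : Mf >>> n' = 0 := Nat.eq_of_beq_eq_true h1
  have h3 := congrArg (fun x => x.testBit (j - n')) h2
  simp only [Nat.testBit_shiftRight, Nat.zero_testBit] at h3
  rw [Nat.add_sub_cancel' (not_lt.1 hlt), hj] at h3
  exact absurd h3 (by simp)

/-- The fold on a register. -/
noncomputable def Qf (P m : ℕ) (l : List ℕ) (x : Q) : Q :=
  ⟨⟨fd P m l x.c0.m, fd P m l x.c0.s⟩, ⟨fd P m l x.c1.m, fd P m l x.c1.s⟩, ⟨fd P m l x.c2.m, fd P m l x.c2.s⟩,
    ⟨fd P m l x.c3.m, fd P m l x.c3.s⟩⟩

/-- Folding modulo `2 ^ P - 1` with at most `F` classes, else `kf`. -/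
noncomputable def st1 (P F N M : ℕ) (rs : List Q) (k : ℕ → List Q → Bool) (kf : Bool) : Bool :=
  fc (Nat.sub (Nat.pow 2 P) 1) fun m => fc (Nat.succ (Nat.log2 (Nat.div N P))) fun T =>
    gen1 P T m F M (fun l c => fc (fd P m l M) fun M2 => rl (Qf P m l) rs fun rs2 => fc (Nat.mul c P) fun N2 =>
      st2 N2 M2 rs2 k) kf

theorem forall₂_comp {f : Q → Q} {i j l : ℕ} (hf : ∀ X, Lq i j X (f X)) :
    ∀ {rs rs' : List Q}, List.Forall₂ (Lq j l) (rs.map f) rs' → List.Forall₂ (Lq i l) rs rs' := by
  intro rs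
  induction rs with
  | nil =>
    intro rs' h
    cases h
    exact .nil
  | cons x rs ih =>
    intro rs' h
    cases h with
    | cons h1 h2 =>
      obtain ⟨⟨a0, a0'⟩, ⟨a1, a1'⟩, ⟨a2, a2'⟩, ⟨a3, a3'⟩⟩ := hf x
      obtain ⟨⟨b0, b0'⟩, ⟨b1, b1'⟩, ⟨b2, b2'⟩, ⟨b3, b3'⟩⟩ := h1
      exact .cons ⟨⟨b0.trans a0, b0'.trans a0'⟩, ⟨b1.trans a1, b1'.trans a1'⟩, ⟨b2.trans a2, b2'.trans a2'⟩,
        ⟨b3.trans a3, b3'.trans a3'⟩⟩ (ih h2)

theorem st1_sound {P F N M i : ℕ} (hP : 0 < P) {rs : List Q} {k : ℕ → List Q → Bool} {kf : Bool}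
    (h : st1 P F N M rs k kf = true) (hM : ∀ i, M.testBit i = true → i < N) (hm : M.testBit i = true) :
    kf = true ∨ ∃ N' rs' j, j < N' ∧ k N' rs' = true ∧ List.Forall₂ (Lq i j) rs rs' := by
  have h0 : gen1 P (Nat.succ (Nat.log2 (Nat.div N P))) (2 ^ P - 1) F M (fun l c => fc (fd P (2 ^ P - 1) l M) fun M2 =>
    rl (Qf P (2 ^ P - 1) l) rs fun rs2 => fc (Nat.mul c P) fun N2 => st2 N2 M2 rs2 k) kf = true := h
  have hb : ∀ i, M.testBit i = true → i < 2 ^ (Nat.succ (Nat.log2 (Nat.div N P))) * P := by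
    intro i hi
    have h1 := hM i hi
    have h2 : N / P < 2 ^ ((N / P).log2 + 1) := Nat.lt_log2_self
    have h3 : N < P * (N / P + 1) := Nat.lt_mul_div_succ N hP
    have h4 : P * (N / P + 1) ≤ P * 2 ^ ((N / P).log2 + 1) := Nat.mul_le_mul_left _ h2
    have h5 : P * 2 ^ ((N / P).log2 + 1) = 2 ^ (Nat.succ (Nat.log2 (Nat.div N P))) * P := mul_comm _ _
    omega
  rcases gen1_sound hP F M _ _ h0 hb with h1 | ⟨l, c, hk, hl⟩
  · exact Or.inl h1
  · obtain ⟨j, hj, hX⟩ := hl i hm
    rw [fc_eq, rl_eq, fc_eq] at hk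
    obtain ⟨N', rs', j', hj', hk', hrs⟩ := st2_sound (i := j) hk hj (by rw [hX]; exact hm)
    exact Or.inr ⟨N', rs', j', hj', hk', forall₂_comp (fun X =>
      ⟨⟨hX _, hX _⟩, ⟨hX _, hX _⟩, ⟨hX _, hX _⟩, ⟨hX _, hX _⟩⟩) hrs⟩

/-- **Compaction** of the registers to the lanes `i < N` of `M`. -/
noncomputable def comp (N m : ℕ) (rs : List Q) (k : ℕ → List Q → Bool) : Bool :=
  fc (Nat.land m (Nat.sub (Nat.pow 2 N) 1)) fun M =>
    Bool.rec (motive := fun _ => Bool)
      (Bool.rec (motive := fun _ => Bool) (st2 N M rs k)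
        (st1 128 4 N M rs k
          (Bool.rec (motive := fun _ => Bool) (st2 N M rs k)
            (st1 1024 8 N M rs k
              (Bool.rec (motive := fun _ => Bool) (st2 N M rs k)
                (st1 8192 8 N M rs k (st2 N M rs k)) (Nat.ble 65536 N))) (Nat.ble 8192 N)))
        (Nat.ble 1024 N)) true (Nat.beq M 0)

theorem comp_lq {N m i : ℕ} {rs : List Q} {k : ℕ → List Q → Bool} (h : comp N m rs k = true) (hi : i < N)
    (hm : m.testBit i = true) :
    ∃ N' rs' j, j < N' ∧ k N' rs' = true ∧ List.Forall₂ (Lq i j) rs rs' := by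
  have h0 : Bool.rec (motive := fun _ => Bool)
      (Bool.rec (motive := fun _ => Bool) (st2 N (m &&& (2 ^ N - 1)) rs k)
        (st1 128 4 N (m &&& (2 ^ N - 1)) rs k
          (Bool.rec (motive := fun _ => Bool) (st2 N (m &&& (2 ^ N - 1)) rs k)
            (st1 1024 8 N (m &&& (2 ^ N - 1)) rs k
              (Bool.rec (motive := fun _ => Bool) (st2 N (m &&& (2 ^ N - 1)) rs k)
                (st1 8192 8 N (m &&& (2 ^ N - 1)) rs k (st2 N (m &&& (2 ^ N - 1)) rs k)) (Nat.ble 65536 N)))
                  (Nat.ble 8192 N)))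
        (Nat.ble 1024 N)) true (Nat.beq (m &&& (2 ^ N - 1)) 0) = true := h
  have hMi : (m &&& (2 ^ N - 1)).testBit i = true := by rw [and_bit hi]; exact hm
  have hM : ∀ i, (m &&& (2 ^ N - 1)).testBit i = true → i < N := by
    intro i hi
    rw [Nat.testBit_and, Nat.testBit_two_pow_sub_one, Bool.and_eq_true, decide_eq_true_eq] at hi
    exact hi.2
  generalize (m &&& (2 ^ N - 1)) = M at *
  rcases brec_ff h0 with ⟨h1, _⟩ | ⟨_, h1⟩
  · rw [Nat.eq_of_beq_eq_true h1, Nat.zero_testBit] at hMi
    exact absurd hMi (by simp)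
  · rcases brec_ff h1 with ⟨_, h2⟩ | ⟨_, h2⟩
    · rcases st1_sound (by norm_num) h2 hM hMi with h3 | h3
      · rcases brec_ff h3 with ⟨_, h4⟩ | ⟨_, h4⟩
        · rcases st1_sound (by norm_num) h4 hM hMi with h5 | h5
          · rcases brec_ff h5 with ⟨_, h6⟩ | ⟨_, h6⟩
            · rcases st1_sound (by norm_num) h6 hM hMi with h7 | h7
              · exact st2_sound h7 hi hMi
              · exact h7
            · exact st2_sound h6 hi hMi
          · exact h5
        · exact st2_sound h4 hi hMi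
      · exact h3
    · exact st2_sound h2 hi hMi

theorem Lq.rq {i j : ℕ} {X Y : Q} (h : Lq i j X Y) (c : K4) (hc : Rq i X c) : Rq j Y c := by
  obtain ⟨⟨a0, a0'⟩, ⟨a1, a1'⟩, ⟨a2, a2'⟩, ⟨a3, a3'⟩⟩ := h
  exact Rq.lane hc a0 a0' a1 a1' a2 a2' a3 a3'

theorem forall₂_imp {α : Type*} {r s : α → α → Prop} (h : ∀ x y, r x y → s x y) :
    ∀ {l l' : List α}, List.Forall₂ r l l' → List.Forall₂ s l l' := by
  intro l l' h1
  induction h1 with
  | nil => exact .nil
  | cons h2 _ ih => exact .cons (h _ _ h2) ih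

/-- **Soundness of the compaction.** -/
theorem comp_sound {N m i : ℕ} {rs : List Q} {k : ℕ → List Q → Bool} (h : comp N m rs k = true) (hi : i < N)
    (hm : m.testBit i = true) :
    ∃ N' rs' i', i' < N' ∧ k N' rs' = true ∧ List.Forall₂ (fun X X' => ∀ c : K4, Rq i X c → Rq i' X' c) rs rs' := by
  obtain ⟨N', rs', j, hj, hk, hrs⟩ := comp_lq h hi hm
  exact ⟨N', rs', j, hj, hk, forall₂_imp (fun _ _ h c => h.rq c) hrs⟩

end Cfsg.Agent.H516.BS.CM
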