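import Cfsg.Agent.H728.BS.Prog

/-!
# Compaction and expansion of lanes (helper516, S5925)

* `comp N M rs k` : the lanes of the mask `M` of all registers of `rs` are moved to the bottom (a network of `log`
  shifts computed in the kernel from `M`), `k N' rs'` gets the new number of lanes and the new registers;
  `comp_sound`, `comp_good` : every lane `i` of `M` is a lane `j < N'` of the new registers.
* `ex81 N O rs k` : a new register `y` with all values of the field, the number of lanes is multiplied by `81`;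
  `ex81_sound`.  `ex3` : the same with a new register with values in the prime field, three times the lanes.
-/

set_option autoImplicit false
set_option linter.unusedSectionVars false

namespace Cfsg.Agent.H516.BS.C

open Cfsg.Agent.H728.BS

/-! ### the network -/

/-- One step : the lanes of `a` stay, the lanes of `b` take the value of `s` lanes above. -/
def st (s a b X : ℕ) : ℕ := Nat.lor (Nat.land X a) (Nat.land (Nat.shiftRight X s) b)

theorem st_testBit (s a b X j : ℕ) :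
    (st s a b X).testBit j = ((X.testBit j && a.testBit j) || (X.testBit (s + j) && b.testBit j)) := by
  show ((X &&& a) ||| ((X >>> s) &&& b)).testBit j = _
  rw [Nat.testBit_or, Nat.testBit_and, Nat.testBit_and, Nat.testBit_shiftRight]

/-- The steps of a network. -/
inductive Sl
  | nil
  | cons (s a b : ℕ) (tl : Sl)

/-- The network on a plane. -/
noncomputable def runs (l : Sl) : ℕ → ℕ :=
  Sl.rec (motive := fun _ => ℕ → ℕ) (fun X => X) (fun s a b _ ih X => fc (st s a b X) ih) l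

theorem runs_nil (X : ℕ) : runs .nil X = X := rfl

theorem runs_cons (s a b : ℕ) (l : Sl) (X : ℕ) : runs (.cons s a b l) X = runs l (st s a b X) := rfl

theorem runs_zero (l : Sl) : runs l 0 = 0 := by
  induction l with
  | nil => rfl
  | cons s a b l ih =>
    rw [runs_cons]
    have : st s a b 0 = 0 := by
      apply Nat.eq_of_testBit_eq
      intro j
      rw [st_testBit]
      simp
    rw [this, ih]

/-- Parallel prefix parity. -/
noncomputable def pp (K : ℕ) : ℕ → ℕ → ℕ :=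
  Nat.rec (motive := fun _ => ℕ → ℕ → ℕ) (fun _ x => x)
    (fun _ ih s x => fc (Nat.xor x (Nat.shiftLeft x s)) fun x' => fc (Nat.mul 2 s) fun s' => ih s' x') K

/-- The network of a mask. -/
noncomputable def gen (K0 K : ℕ) : ℕ → ℕ → ℕ → (Sl → ℕ → Bool) → Bool :=
  Nat.rec (motive := fun _ => ℕ → ℕ → ℕ → (Sl → ℕ → Bool) → Bool)
    (fun _ M _ k => k Sl.nil M)
    (fun _ ih s M mk k =>
      fc (pp K0 1 mk) fun mp =>
      fc (Nat.land mp M) fun mv =>
      fc (Nat.shiftRight mv s) fun b =>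
      fc (Nat.xor M mv) fun a =>
      fc (Nat.xor mk (Nat.land mk mp)) fun mk' =>
      fc (Nat.mul 2 s) fun s' =>
      Bool.rec (motive := fun _ => Bool) false
        (Bool.rec (motive := fun _ => Bool) false
          (fc (Nat.lor a b) fun M' => ih s' M' mk' fun l Mf => k (Sl.cons s a b l) Mf)
          (Nat.beq (Nat.land a b) 0))
        (Nat.beq (Nat.shiftLeft b s) mv)) K

theorem brec_true {b c : Bool} (h : Bool.rec (motive := fun _ => Bool) false c b = true) : b = true ∧ c = true := by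
  cases b
  · exact absurd h (by simp)
  · exact ⟨rfl, h⟩

theorem gen_sound (K0 : ℕ) : ∀ (K s M mk : ℕ) (k : Sl → ℕ → Bool), gen K0 K s M mk k = true →
    ∃ l Mf, k l Mf = true ∧ ∀ i, M.testBit i = true →
      ∃ j, Mf.testBit j = true ∧ ∀ X, (runs l X).testBit j = X.testBit i := by
  intro K
  induction K with
  | zero =>
    intro s M mk k h
    exact ⟨.nil, M, h, fun i hi => ⟨i, hi, fun X => rfl⟩⟩
  | succ K ih =>
    intro s M mk k h
    generalize hmp : pp K0 1 mk = mp at *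
    have h' : Bool.rec (motive := fun _ => Bool) false
        (Bool.rec (motive := fun _ => Bool) false
          (gen K0 K (2 * s) ((M ^^^ (mp &&& M)) ||| ((mp &&& M) >>> s)) (mk ^^^ (mk &&& mp)) fun l Mf =>
            k (Sl.cons s (M ^^^ (mp &&& M)) ((mp &&& M) >>> s) l) Mf)
          (Nat.beq ((M ^^^ (mp &&& M)) &&& ((mp &&& M) >>> s)) 0))
        (Nat.beq (((mp &&& M) >>> s) <<< s) (mp &&& M)) = true := by
      rw [← hmp]
      exact h
    clear h hmp
    obtain ⟨h1, h⟩ := brec_true h'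
    obtain ⟨h2, h⟩ := brec_true h
    replace h1 := Nat.eq_of_beq_eq_true h1
    replace h2 := Nat.eq_of_beq_eq_true h2
    obtain ⟨l, Mf, hk, hl⟩ := ih _ _ _ _ h
    refine ⟨_, Mf, hk, fun i hi => ?_⟩
    generalize (mp &&& M) = mv at *
    generalize hb : mv >>> s = b at *
    generalize ha : M ^^^ mv = a at *
    have hab : ∀ j, ¬(a.testBit j = true ∧ b.testBit j = true) := by
      intro j hj
      have h3 : (a &&& b).testBit j = true := by rw [Nat.testBit_and, hj.1, hj.2]; rfl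
      rw [h2, Nat.zero_testBit] at h3
      exact absurd h3 (by simp)
    have hnew : ∃ j0, (a ||| b).testBit j0 = true ∧ ∀ X, (st s a b X).testBit j0 = X.testBit i := by
      by_cases hm : mv.testBit i = true
      · have h4 : (b <<< s).testBit i = true := by rw [h1]; exact hm
        rw [Nat.testBit_shiftLeft, Bool.and_eq_true, decide_eq_true_eq] at h4
        obtain ⟨h5, h6⟩ := h4
        refine ⟨i - s, by rw [Nat.testBit_or, h6, Bool.or_true], fun X => ?_⟩
        have h7 : a.testBit (i - s) = false := by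
          by_contra hc
          exact hab _ ⟨by simpa using hc, h6⟩
        rw [st_testBit, h6, h7, Nat.add_sub_cancel' h5]
        simp
      · have h8 : a.testBit i = true := by
          rw [← ha, Nat.testBit_xor, hi, Bool.eq_false_of_not_eq_true hm]
          rfl
        have h9 : b.testBit i = false := by
          by_contra hc
          exact hab _ ⟨h8, by simpa using hc⟩
        refine ⟨i, by rw [Nat.testBit_or, h8, Bool.true_or], fun X => ?_⟩
        rw [st_testBit, h8, h9]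
        simp
    obtain ⟨j0, hj0, hX0⟩ := hnew
    obtain ⟨j, hj, hX⟩ := hl j0 hj0
    exact ⟨j, hj, fun X => by rw [runs_cons, hX, hX0]⟩

/-! ### all registers -/

/-- The network on a register. -/
noncomputable def Qr (l : Sl) (x : Q) : Q :=
  ⟨⟨runs l x.c0.m, runs l x.c0.s⟩, ⟨runs l x.c1.m, runs l x.c1.s⟩, ⟨runs l x.c2.m, runs l x.c2.s⟩,
    ⟨runs l x.c3.m, runs l x.c3.s⟩⟩

/-- The network on a list of registers. -/
noncomputable def rl (f : Q → Q) (rs : List Q) : (List Q → Bool) → Bool :=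
  List.rec (motive := fun _ => (List Q → Bool) → Bool) (fun k => k [])
    (fun x _ ih k => ih fun rs' => fo (f x) fun y => k (y :: rs')) rs

theorem rl_eq (f : Q → Q) (rs : List Q) (k : List Q → Bool) : rl f rs k = k (rs.map f) := by
  induction rs generalizing k with
  | nil => rfl
  | cons x rs ih => exact ih fun rs' => fo (f x) fun y => k (y :: rs')

/-- The network of the mask `M` (mask of `N` lanes), and its final mask (`K` is the number of bits of `N`). -/
noncomputable def net (N K M : ℕ) (k : Sl → ℕ → Bool) : Bool :=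
  fc (Nat.shiftLeft (Nat.xor (Nat.sub (Nat.pow 2 N) 1) M) 1) fun mk => gen K K 1 M mk k

/-- The position of the first bit of `X < 2 ^ 2 ^ K`. -/
noncomputable def bl (X K : ℕ) : ℕ → ℕ :=
  Nat.rec (motive := fun _ => ℕ → ℕ) (fun acc => acc)
    (fun K ih acc => fc (Nat.add acc (Nat.pow 2 K)) fun t =>
      Bool.rec (motive := fun _ => ℕ) (ih t) (ih acc) (Nat.beq (Nat.shiftRight X t) 0)) K

/-- **Compaction** of the registers to the lanes of `M`. -/
noncomputable def comp (N M : ℕ) (rs : List Q) (k : ℕ → List Q → Bool) : Bool :=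
  Bool.rec (motive := fun _ => Bool)
    (fc (Nat.succ (Nat.log2 N)) fun K => net N K M fun l Mf => fc (Nat.succ (bl Mf K 0)) fun n' =>
      Bool.rec (motive := fun _ => Bool) false
        (rl (Qr l) rs fun rs' => k n' rs') (Nat.beq (Nat.shiftRight Mf n') 0)) true (Nat.beq M 0)

theorem getr_nil (n : ℕ) : getr [] n = ⟨⟨0, 0⟩, ⟨0, 0⟩, ⟨0, 0⟩, ⟨0, 0⟩⟩ := rfl

theorem getr_map (f : Q → Q) (hf : f ⟨⟨0, 0⟩, ⟨0, 0⟩, ⟨0, 0⟩, ⟨0, 0⟩⟩ = ⟨⟨0, 0⟩, ⟨0, 0⟩, ⟨0, 0⟩, ⟨0, 0⟩⟩) :
    ∀ (rs : List Q) (n : ℕ), getr (rs.map f) n = f (getr rs n) := by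
  intro rs
  induction rs with
  | nil =>
    intro n
    rw [List.map_nil, getr_nil, hf]
  | cons x rs ih =>
    intro n
    cases n with
    | zero => rfl
    | succ n => exact ih n

section sound

variable {F : Type*} [Field F] [CharP F 3] {g : F} {i : ℕ} {v : ℕ → F}

/-- Change of lanes. -/
theorem R.lane {i j : ℕ} {X Y : Q} {u : F} (h : R g i X u) (h0 : Y.c0.m.testBit j = X.c0.m.testBit i)
    (h0' : Y.c0.s.testBit j = X.c0.s.testBit i) (h1 : Y.c1.m.testBit j = X.c1.m.testBit i)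
    (h1' : Y.c1.s.testBit j = X.c1.s.testBit i) (h2 : Y.c2.m.testBit j = X.c2.m.testBit i)
    (h2' : Y.c2.s.testBit j = X.c2.s.testBit i) (h3 : Y.c3.m.testBit j = X.c3.m.testBit i)
    (h3' : Y.c3.s.testBit j = X.c3.s.testBit i) : R g j Y u := by
  obtain ⟨c, ⟨a0, a1, a2, a3⟩, hu⟩ := h
  exact ⟨c, ⟨⟨h0.trans a0.1, h0'.trans a0.2⟩, ⟨h1.trans a1.1, h1'.trans a1.2⟩, ⟨h2.trans a2.1, h2'.trans a2.2⟩,
    ⟨h3.trans a3.1, h3'.trans a3.2⟩⟩, hu⟩

theorem Good.map {L : ℕ} {rs : List Q} (h : Good g i v L rs) {j : ℕ} {f : Q → Q}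
    (hf : f ⟨⟨0, 0⟩, ⟨0, 0⟩, ⟨0, 0⟩, ⟨0, 0⟩⟩ = ⟨⟨0, 0⟩, ⟨0, 0⟩, ⟨0, 0⟩, ⟨0, 0⟩⟩)
    (hfl : ∀ X u, R g i X u → R g j (f X) u) : Good g j v L (rs.map f) := by
  intro n hn
  rw [getr_map f hf]
  exact hfl _ _ (h n hn)

theorem net_sound {N K M : ℕ} {k : Sl → ℕ → Bool} (h : net N K M k = true) :
    ∃ l Mf, k l Mf = true ∧ ∀ i, M.testBit i = true →
      ∃ j, Mf.testBit j = true ∧ ∀ X, (runs l X).testBit j = X.testBit i := by
  have h' : gen K K 1 M (Nat.shiftLeft (Nat.xor (Nat.sub (Nat.pow 2 N) 1) M) 1) k = true := h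
  exact gen_sound _ _ _ _ _ _ h'

theorem comp_core {N M i : ℕ} {rs : List Q} {k : ℕ → List Q → Bool} (h : comp N M rs k = true)
    (hi : M.testBit i = true) :
    ∃ l N' j, j < N' ∧ (∀ X, (runs l X).testBit j = X.testBit i) ∧ k N' (rs.map (Qr l)) = true := by
  have hM : M ≠ 0 := by
    rintro rfl
    rw [Nat.zero_testBit] at hi
    exact absurd hi (by simp)
  have hb : Nat.beq M 0 = false := by
    cases M with
    | zero => exact absurd rfl hM
    | succ M => rfl
  have h' : (net N (Nat.succ (Nat.log2 N)) M fun l Mf => fc (Nat.succ (bl Mf (Nat.succ (Nat.log2 N)) 0)) fun n' =>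
      Bool.rec (motive := fun _ => Bool) false
        (rl (Qr l) rs fun rs' => k n' rs') (Nat.beq (Nat.shiftRight Mf n') 0)) = true := by
    unfold comp at h
    rw [hb] at h
    exact h
  obtain ⟨l, Mf, hk, hl⟩ := net_sound h'
  obtain ⟨j, hj, hX⟩ := hl i hi
  rw [fc_eq] at hk
  obtain ⟨h0, hk⟩ := brec_true hk
  replace h0 : Mf >>> Nat.succ (bl Mf (Nat.succ (Nat.log2 N)) 0) = 0 := Nat.eq_of_beq_eq_true h0
  rw [rl_eq] at hk
  refine ⟨l, _, j, ?_, hX, hk⟩
  by_contra hlt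
  have h1 := congrArg (fun x => x.testBit (j - Nat.succ (bl Mf (Nat.succ (Nat.log2 N)) 0))) h0
  simp only [Nat.testBit_shiftRight, Nat.zero_testBit] at h1
  rw [Nat.add_sub_cancel' (not_lt.1 hlt), hj] at h1
  exact absurd h1 (by simp)

theorem Rq.lane {i j : ℕ} {X Y : Q} {c : K4} (h : Rq i X c) (h0 : Y.c0.m.testBit j = X.c0.m.testBit i)
    (h0' : Y.c0.s.testBit j = X.c0.s.testBit i) (h1 : Y.c1.m.testBit j = X.c1.m.testBit i)
    (h1' : Y.c1.s.testBit j = X.c1.s.testBit i) (h2 : Y.c2.m.testBit j = X.c2.m.testBit i)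
    (h2' : Y.c2.s.testBit j = X.c2.s.testBit i) (h3 : Y.c3.m.testBit j = X.c3.m.testBit i)
    (h3' : Y.c3.s.testBit j = X.c3.s.testBit i) : Rq j Y c := by
  obtain ⟨a0, a1, a2, a3⟩ := h
  exact ⟨⟨h0.trans a0.1, h0'.trans a0.2⟩, ⟨h1.trans a1.1, h1'.trans a1.2⟩, ⟨h2.trans a2.1, h2'.trans a2.2⟩,
    ⟨h3.trans a3.1, h3'.trans a3.2⟩⟩

theorem forall₂_map {α : Type*} {r : α → α → Prop} {f : α → α} (h : ∀ x, r x (f x)) :
    ∀ l : List α, List.Forall₂ r l (l.map f) := by
  intro l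
  induction l with
  | nil => exact .nil
  | cons x l ih => exact .cons (h x) ih

/-- **Soundness of the compaction**, in the form for the plan machine. -/
theorem comp_sound {N m i : ℕ} {rs : List Q} {k : ℕ → List Q → Bool} (h : comp N m rs k = true) (_hi : i < N)
    (hm : m.testBit i = true) :
    ∃ N' rs' i', i' < N' ∧ k N' rs' = true ∧ List.Forall₂ (fun X X' => ∀ c : K4, Rq i X c → Rq i' X' c) rs rs' := by
  obtain ⟨l, N', j, hj, hX, hk⟩ := comp_core h hm
  exact ⟨N', _, j, hj, hk, forall₂_map (fun X c hc =>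
    Rq.lane hc (hX _) (hX _) (hX _) (hX _) (hX _) (hX _) (hX _) (hX _)) rs⟩

/-- **Soundness of the compaction.** -/
theorem comp_good {N M L : ℕ} {rs : List Q} {k : ℕ → List Q → Bool} (h : comp N M rs k = true)
    (hi : M.testBit i = true) (hr : Good g i v L rs) :
    ∃ N' j rs', j < N' ∧ Good g j v L rs' ∧ k N' rs' = true := by
  obtain ⟨l, N', j, hj, hX, hk⟩ := comp_core h hi
  refine ⟨N', j, _, hj, ?_, hk⟩
  refine Good.map hr ?_ fun X u hu => R.lane hu (hX _) (hX _) (hX _) (hX _) (hX _) (hX _) (hX _) (hX _)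
  simp only [Qr, runs_zero]

/-- the lanes where the value is not zero -/
theorem R.nz_ne {X : Q} {u : F} (hx : R g i X u) (hu : u ≠ 0) : X.nz.testBit i = true := by
  obtain ⟨c, ⟨a0, a1, a2, a3⟩, rfl⟩ := hx
  rw [Q.nz, Nat.testBit_or, Nat.testBit_or, Nat.testBit_or, a0.1, a1.1, a2.1, a3.1]
  by_contra hc
  apply hu
  simp only [Bool.or_eq_true, decide_eq_true_eq, not_or, not_not] at hc
  obtain ⟨⟨e0, e1⟩, e2, e3⟩ := hc
  simp [toF, e0, e1, e2, e3]

end sound

/-! ### repetition -/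

/-- `1 + 2 ^ N + … + 2 ^ ((K - 1) N)` -/
def comb (N K : ℕ) : ℕ := Nat.div (Nat.sub (Nat.pow 2 (Nat.mul K N)) 1) (Nat.sub (Nat.pow 2 N) 1)

theorem comb_zero (N : ℕ) : comb N 0 = 0 := by
  show (2 ^ (0 * N) - 1) / (2 ^ N - 1) = 0
  simp

theorem comb_succ {N : ℕ} (hN : 0 < N) (K : ℕ) : comb N (K + 1) = comb N K + 2 ^ (K * N) := by
  show (2 ^ ((K + 1) * N) - 1) / (2 ^ N - 1) = (2 ^ (K * N) - 1) / (2 ^ N - 1) + 2 ^ (K * N)
  have h2 : 2 ≤ 2 ^ N := by
    calc 2 = 2 ^ 1 := rfl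
      _ ≤ 2 ^ N := Nat.pow_le_pow_right (by norm_num) hN
  have h1 : 1 ≤ 2 ^ (K * N) := Nat.one_le_two_pow
  have h3 : 2 ^ ((K + 1) * N) - 1 = (2 ^ (K * N) - 1) + (2 ^ (K * N)) * (2 ^ N - 1) := by
    have h4 : 2 ^ ((K + 1) * N) = 2 ^ (K * N) * 2 ^ N := by rw [← pow_add]; ring_nf
    obtain ⟨a, ha⟩ := Nat.exists_eq_add_of_le h2
    rw [h4, ha, show 2 + a - 1 = a + 1 by omega]
    have h5 : 2 ^ (K * N) * (2 + a) = 2 ^ (K * N) + 2 ^ (K * N) * (a + 1) := by ring
    rw [h5]
    omega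
  rw [h3, Nat.add_mul_div_right _ _ (by omega)]

theorem mul_comb_lt {N : ℕ} (hN : 0 < N) {X : ℕ} (hX : X < 2 ^ N) (K : ℕ) : X * comb N K < 2 ^ (K * N) := by
  induction K with
  | zero => rw [comb_zero]; simp
  | succ K ih =>
    rw [comb_succ hN, mul_add, add_mul, one_mul, pow_add]
    have h1 : X * 2 ^ (K * N) ≤ (2 ^ N - 1) * 2 ^ (K * N) := Nat.mul_le_mul_right _ (by omega)
    have h2 : (2 ^ N - 1) * 2 ^ (K * N) + 2 ^ (K * N) = 2 ^ (K * N) * 2 ^ N := by
      have h4 : 1 ≤ 2 ^ N := Nat.one_le_two_pow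
      obtain ⟨a, ha⟩ := Nat.exists_eq_add_of_le h4
      rw [ha, show 1 + a - 1 = a by omega]
      ring
    omega

/-- Copies of a plane. -/
theorem mul_comb_testBit {N : ℕ} (hN : 0 < N) {X : ℕ} (hX : X < 2 ^ N) (K : ℕ) {d r : ℕ} (hd : d < K) (hr : r < N) :
    (X * comb N K).testBit (r + d * N) = X.testBit r := by
  induction K with
  | zero => exact absurd hd (Nat.not_lt_zero _)
  | succ K ih =>
    have h0 : X * comb N (K + 1) = 2 ^ (K * N) * X + X * comb N K := by
      rw [comb_succ hN]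
      ring
    rw [h0, Nat.testBit_two_pow_mul_add _ (mul_comb_lt hN hX K)]
    rcases Nat.lt_succ_iff_lt_or_eq.1 hd with h1 | h1
    · have h2 : r + d * N < K * N := by
        have h3 : (d + 1) * N ≤ K * N := Nat.mul_le_mul_right _ h1
        rw [add_mul, one_mul] at h3
        omega
      rw [if_pos h2]
      exact ih h1
    · subst h1
      rw [if_neg (by omega), Nat.add_sub_cancel]

/-! ### planes of digits -/

/-- The digit of the lane : `K` times `B` lanes with `0`, `B` lanes with `1`, `B` lanes with `2`. -/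
def dT (B K : ℕ) : T :=
  ⟨Nat.mul (Nat.shiftLeft (Nat.sub (Nat.pow 2 (Nat.mul 2 B)) 1) B) (comb (Nat.mul 3 B) K),
    Nat.mul (Nat.shiftLeft (Nat.sub (Nat.pow 2 B) 1) (Nat.mul 2 B)) (comb (Nat.mul 3 B) K)⟩

theorem dT_m_lt (B : ℕ) : (2 ^ (2 * B) - 1) <<< B < 2 ^ (3 * B) := by
  rw [Nat.shiftLeft_eq]
  have h1 : 1 ≤ 2 ^ (2 * B) := Nat.one_le_two_pow
  have h2 : 2 ^ (3 * B) = 2 ^ (2 * B) * 2 ^ B := by rw [← pow_add]; ring_nf
  rw [h2]
  exact Nat.mul_lt_mul_of_pos_right (by omega) (by positivity)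

theorem dT_s_lt (B : ℕ) : (2 ^ B - 1) <<< (2 * B) < 2 ^ (3 * B) := by
  rw [Nat.shiftLeft_eq]
  have h1 : 1 ≤ 2 ^ B := Nat.one_le_two_pow
  have h2 : 2 ^ (3 * B) = 2 ^ B * 2 ^ (2 * B) := by rw [← pow_add]; ring_nf
  rw [h2]
  exact Nat.mul_lt_mul_of_pos_right (by omega) (by positivity)

theorem dT_rt {B : ℕ} (hB : 0 < B) {K r c h : ℕ} (hr : r < B) (hc : c < 3) (hh : h < K) :
    T.Rt (r + c * B + h * (3 * B)) (dT B K) (c : ZMod 3) := by
  have h3 : r + c * B < 3 * B := by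
    have : c * B ≤ 2 * B := Nat.mul_le_mul_right _ (by omega)
    omega
  constructor
  · show (((2 ^ (2 * B) - 1) <<< B) * comb (3 * B) K).testBit _ = _
    rw [mul_comb_testBit (by omega) (dT_m_lt B) K hh h3, Nat.testBit_shiftLeft, Nat.testBit_two_pow_sub_one]
    have hc' : c = 0 ∨ c = 1 ∨ c = 2 := by omega
    rcases hc' with rfl | rfl | rfl
    · rw [decide_eq_false (by omega)]
      simp
    · rw [decide_eq_true (by omega), decide_eq_true (by omega)]
      decide
    · rw [decide_eq_true (by omega), decide_eq_true (by omega)]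
      decide
  · show (((2 ^ B - 1) <<< (2 * B)) * comb (3 * B) K).testBit _ = _
    rw [mul_comb_testBit (by omega) (dT_s_lt B) K hh h3, Nat.testBit_shiftLeft, Nat.testBit_two_pow_sub_one]
    have hc' : c = 0 ∨ c = 1 ∨ c = 2 := by omega
    rcases hc' with rfl | rfl | rfl
    · rw [decide_eq_false (by omega)]
      rfl
    · rw [decide_eq_false (by omega)]
      rfl
    · rw [decide_eq_true (by omega), decide_eq_true (by omega)]
      rfl

/-- Copies of a register. -/
def Qc (O C : ℕ) (x : Q) : Q :=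
  ⟨⟨Nat.mul (Nat.land x.c0.m O) C, Nat.mul (Nat.land x.c0.s O) C⟩,
    ⟨Nat.mul (Nat.land x.c1.m O) C, Nat.mul (Nat.land x.c1.s O) C⟩,
    ⟨Nat.mul (Nat.land x.c2.m O) C, Nat.mul (Nat.land x.c2.s O) C⟩,
    ⟨Nat.mul (Nat.land x.c3.m O) C, Nat.mul (Nat.land x.c3.s O) C⟩⟩

/-- A new register with all values of the field. -/
noncomputable def ex81 (N O : ℕ) (rs : List Q) (k : ℕ → ℕ → List Q → Bool) : Bool :=
  fc (comb N 81) fun C => rl (Qc O C) rs fun rs' =>
    fo ⟨dT N 27, dT (Nat.mul 3 N) 9, dT (Nat.mul 9 N) 3, dT (Nat.mul 27 N) 1⟩ fun y =>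
      fc (Nat.mul 81 N) fun N' => fc (Nat.sub (Nat.pow 2 N') 1) fun O' => k N' O' (y :: rs')

/-- A new register with all values of the prime field. -/
noncomputable def ex3 (N O : ℕ) (rs : List Q) (k : ℕ → ℕ → List Q → Bool) : Bool :=
  fc (comb N 3) fun C => rl (Qc O C) rs fun rs' =>
    fo ⟨dT N 1, ⟨0, 0⟩, ⟨0, 0⟩, ⟨0, 0⟩⟩ fun y =>
      fc (Nat.mul 3 N) fun N' => fc (Nat.sub (Nat.pow 2 N') 1) fun O' => k N' O' (y :: rs')

section sound2

variable {F : Type*} [Field F] [CharP F 3] {g : F} {i : ℕ} {v : ℕ → F}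

theorem Qc_R {N : ℕ} (hi : i < N) {K d : ℕ} (hd : d < K) (X : Q) (u : F) (h : R g i X u) :
    R g (i + d * N) (Qc (2 ^ N - 1) (comb N K) X) u := by
  have key : ∀ x : ℕ, ((x &&& (2 ^ N - 1)) * comb N K).testBit (i + d * N) = x.testBit i := by
    intro x
    have h1 : x &&& (2 ^ N - 1) < 2 ^ N := by
      rw [Nat.and_two_pow_sub_one_eq_mod]
      exact Nat.mod_lt _ (by positivity)
    rw [mul_comb_testBit (by omega) h1 K hd hi, Nat.testBit_and, Nat.testBit_two_pow_sub_one, decide_eq_true hi,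
      Bool.and_true]
  exact R.lane h (key _) (key _) (key _) (key _) (key _) (key _) (key _) (key _)

theorem Qc_zero (O C : ℕ) : Qc O C ⟨⟨0, 0⟩, ⟨0, 0⟩, ⟨0, 0⟩, ⟨0, 0⟩⟩ = ⟨⟨0, 0⟩, ⟨0, 0⟩, ⟨0, 0⟩, ⟨0, 0⟩⟩ := by
  have h : Nat.mul (Nat.land 0 O) C = 0 := by
    show (0 &&& O) * C = 0
    simp
  simp only [Qc, h]

theorem val_cast (c : ZMod 3) : ((c.val : ℕ) : ZMod 3) = c := ZMod.natCast_zmod_val c

/-- **Soundness of the expansion.** -/
theorem ex81_sound {N L : ℕ} {rs : List Q} {k : ℕ → ℕ → List Q → Bool} (h : ex81 N (2 ^ N - 1) rs k = true)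
    (hi : i < N) (hr : Good g i v L rs) (hv : ∃ c : K4, v L = toF g c) :
    ∃ N' j rs', j < N' ∧ Good g j v (L + 1) rs' ∧ k N' (2 ^ N' - 1) rs' = true := by
  obtain ⟨c, hc⟩ := hv
  have h' : k (81 * N) (2 ^ (81 * N) - 1)
      (⟨dT N 27, dT (3 * N) 9, dT (9 * N) 3, dT (27 * N) 1⟩ :: rs.map (Qc (2 ^ N - 1) (comb N 81))) = true := by
    have h1 := h
    unfold ex81 at h1
    rw [fc_eq, rl_eq] at h1
    exact h1
  have b0 : c.c0.val < 3 := ZMod.val_lt _
  have b1 : c.c1.val < 3 := ZMod.val_lt _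
  have b2 : c.c2.val < 3 := ZMod.val_lt _
  have b3 : c.c3.val < 3 := ZMod.val_lt _
  have hN : 0 < N := by omega
  have e1 : c.c1.val * (3 * N) = 3 * (c.c1.val * N) := by ring
  have e2 : c.c2.val * (9 * N) = 9 * (c.c2.val * N) := by ring
  have m0 : c.c0.val * N ≤ 2 * N := Nat.mul_le_mul_right _ (by omega)
  have m1 : c.c1.val * N ≤ 2 * N := Nat.mul_le_mul_right _ (by omega)
  have m2 : c.c2.val * N ≤ 2 * N := Nat.mul_le_mul_right _ (by omega)
  have m3 : c.c3.val * N ≤ 2 * N := Nat.mul_le_mul_right _ (by omega)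
  set d := c.c0.val + 3 * c.c1.val + 9 * c.c2.val + 27 * c.c3.val with hd
  have hd81 : d < 81 := by omega
  refine ⟨81 * N, i + d * N, _, ?_, ?_, h'⟩
  · have : d * N ≤ 80 * N := Nat.mul_le_mul_right _ (by omega)
    omega
  · refine Good.cons (Good.map hr (Qc_zero _ _) fun X u hu => Qc_R hi hd81 X u hu) ?_
    refine ⟨c, ⟨?_, ?_, ?_, ?_⟩, hc⟩
    · have h0 := dT_rt (B := N) hN (K := 27) (r := i) (c := c.c0.val) (h := c.c1.val + 3 * c.c2.val + 9 * c.c3.val)
        hi b0 (by omega)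
      rw [val_cast] at h0
      have e : i + c.c0.val * N + (c.c1.val + 3 * c.c2.val + 9 * c.c3.val) * (3 * N) = i + d * N := by rw [hd]; ring
      rw [e] at h0
      exact h0
    · have h0 := dT_rt (B := 3 * N) (by omega) (K := 9) (r := i + c.c0.val * N) (c := c.c1.val)
        (h := c.c2.val + 3 * c.c3.val) (by omega) b1 (by omega)
      rw [val_cast] at h0
      have e : i + c.c0.val * N + c.c1.val * (3 * N) + (c.c2.val + 3 * c.c3.val) * (3 * (3 * N)) = i + d * N := by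
        rw [hd]; ring
      rw [e] at h0
      exact h0
    · have h0 := dT_rt (B := 9 * N) (by omega) (K := 3) (r := i + c.c0.val * N + c.c1.val * (3 * N)) (c := c.c2.val)
        (h := c.c3.val) (by omega) b2 (by omega)
      rw [val_cast] at h0
      have e : i + c.c0.val * N + c.c1.val * (3 * N) + c.c2.val * (9 * N) + c.c3.val * (3 * (9 * N)) = i + d * N := by
        rw [hd]; ring
      rw [e] at h0
      exact h0
    · have h0 := dT_rt (B := 27 * N) (by omega) (K := 1)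
        (r := i + c.c0.val * N + c.c1.val * (3 * N) + c.c2.val * (9 * N)) (c := c.c3.val) (h := 0)
        (by omega) b3 (by omega)
      rw [val_cast] at h0
      have e : i + c.c0.val * N + c.c1.val * (3 * N) + c.c2.val * (9 * N) + c.c3.val * (27 * N) + 0 * (3 * (27 * N))
          = i + d * N := by
        rw [hd]; ring
      rw [e] at h0
      exact h0

/-- **Soundness of the expansion.** -/
theorem ex3_sound {N L : ℕ} {rs : List Q} {k : ℕ → ℕ → List Q → Bool} (h : ex3 N (2 ^ N - 1) rs k = true)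
    (hi : i < N) (hr : Good g i v L rs) (hv : ∃ c : ZMod 3, v L = io F c) :
    ∃ N' j rs', j < N' ∧ Good g j v (L + 1) rs' ∧ k N' (2 ^ N' - 1) rs' = true := by
  obtain ⟨c, hc⟩ := hv
  have h' : k (3 * N) (2 ^ (3 * N) - 1)
      (⟨dT N 1, ⟨0, 0⟩, ⟨0, 0⟩, ⟨0, 0⟩⟩ :: rs.map (Qc (2 ^ N - 1) (comb N 3))) = true := by
    have h1 := h
    unfold ex3 at h1
    rw [fc_eq, rl_eq] at h1
    exact h1
  have b0 : c.val < 3 := ZMod.val_lt _
  have hN : 0 < N := by omega
  refine ⟨3 * N, i + c.val * N, _, ?_, ?_, h'⟩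
  · have : c.val * N ≤ 2 * N := Nat.mul_le_mul_right _ (by omega)
    omega
  · refine Good.cons (Good.map hr (Qc_zero _ _) fun X u hu => Qc_R hi b0 X u hu) ?_
    refine ⟨⟨c, 0, 0, 0⟩, ⟨?_, T.Rt.zero _, T.Rt.zero _, T.Rt.zero _⟩, ?_⟩
    · have h0 := dT_rt (B := N) hN (K := 1) (r := i) (c := c.val) (h := 0) hi b0 (by omega)
      rw [val_cast, zero_mul, add_zero] at h0
      exact h0
    · rw [hc]
      simp [toF]

end sound2

end Cfsg.Agent.H516.BS.C
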